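import Mathlib
import Cfsg.Agent.Base
import Cfsg.Agent.Lib.ClassMax.Basic

/-!
Subspace stabilisers in `SL(V)`.
-/

set_option autoImplicit false

namespace H97

open Module Cfsg

variable {F V : Type*} [Field F] [AddCommGroup V] [Module F V] [FiniteDimensional F V]

omit [FiniteDimensional F V] in
/-- There is a transvection moving a proper non-zero subspace. -/
theorem exists_SLV_not_stab {W : Submodule F V} (h0 : W ≠ ⊥) (h1 : W ≠ ⊤) :
    ∃ g ∈ SLV F V, g ∉ stab W := by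
  obtain ⟨w, hw, hw0⟩ := Submodule.exists_mem_ne_zero_of_ne_bot h0
  obtain ⟨u, -, hu⟩ := SetLike.exists_of_lt (lt_top_iff_ne_top.2 h1)
  have h2 : w ∉ F ∙ u := by
    intro h
    obtain ⟨a, rfl⟩ := Submodule.mem_span_singleton.1 h
    have ha : a ≠ 0 := by rintro rfl; simp at hw0
    exact hu ((W.smul_mem_iff ha).1 hw)
  obtain ⟨φ, h3, h4⟩ := exists_dual_of_notMem_span h2 (1 : F)
  obtain ⟨g, hg, e⟩ := (hasT_SLV h3).elim
  refine ⟨g, hg, fun h => hu ?_⟩
  have := (h w).1 hw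
  rw [e, h4, one_smul] at this
  exact (W.add_mem_iff_right hw).1 this

/-- If `M` contains the stabiliser of `W` in `SL` and `cen M` is not inside `W`, then `M ≥ SL`. -/
theorem SLV_le_of_stab {W : Submodule F V} {M : Subgroup (V ≃ₗ[F] V)} (h1 : stab W ⊓ SLV F V ≤ M)
    {u : V} (hu : u ∈ cen M) (huW : u ∉ W) : SLV F V ≤ M := by
  have hW : W ≤ cen M := fun w hw φ hφ => (hasT_stab_of_mem hφ hw).mono h1
  apply SLV_le_of_cen
  rw [eq_top_iff]
  intro v _
  by_cases h : u ∈ W ⊔ F ∙ (v - u)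
  · obtain ⟨w, hw, y, hy, e⟩ := Submodule.mem_sup.1 h
    obtain ⟨a, rfl⟩ := Submodule.mem_span_singleton.1 hy
    have ha : a ≠ 0 := by
      rintro rfl
      rw [zero_smul, add_zero] at e
      exact huW (e ▸ hw)
    have : v = u + a⁻¹ • (u - w) := by
      have h3 : u - w = a • (v - u) := by rw [sub_eq_iff_eq_add', e]
      rw [h3, smul_smul, inv_mul_cancel₀ ha, one_smul]; abel
    rw [this]
    exact (cen M).add_mem hu ((cen M).smul_mem _ ((cen M).sub_mem hu (hW hw)))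
  · obtain ⟨φ, h2, h3, h4⟩ := exists_dual_of_notMem_sup W h (1 : F)
    obtain ⟨g, hg, e⟩ := ((hasT_stab_of_ker h3 h2).mono h1).elim
    have := cen_apply hu hg
    rwa [e, h4, one_smul, add_sub_cancel] at this

/-- The stabiliser of a proper non-zero subspace is maximal in `SL(V)`. -/
theorem isMaximalIn_stab_SLV {W : Submodule F V} (h0 : W ≠ ⊥) (h1 : W ≠ ⊤) :
    Geo.IsMaximalIn (SLV F V) (stab W ⊓ SLV F V) := by
  refine isMaximalIn_of inf_le_right (fun h => ?_) ?_
  · obtain ⟨g, hg, hg'⟩ := exists_SLV_not_stab h0 h1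
    exact hg' (h hg).1
  · rintro M hM hM' ⟨g, hg, hg'⟩
    obtain ⟨v, hv, hv'⟩ := exists_not_maps (W := W) (g := g) fun h => hg' ⟨h, hM' hg⟩
    exact SLV_le_of_stab hM (cen_apply (fun φ hφ => (hasT_stab_of_mem hφ hv).mono hM) hg) hv'

/-- The joint stabiliser of `W` and `U` is properly contained in the stabiliser of `W` as soon as
some transvection fixing `W` moves `U`. -/
theorem exists_between_stab_stab {W U : Submodule F V} (h0 : W ≠ ⊥) (h1 : W ≠ ⊤)
    (h : ∃ g ∈ stab W ⊓ SLV F V, g ∉ stab U) :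
    ∃ K, stab W ⊓ stab U ⊓ SLV F V < K ∧ K < SLV F V := by
  refine exists_between_of (stab W ⊓ SLV F V) (fun g hg => ⟨hg.1.1, hg.2⟩) inf_le_right ?_ ?_
  · obtain ⟨g, hg, hg'⟩ := h
    exact ⟨g, hg, fun h => hg' h.1.2⟩
  · obtain ⟨g, hg, hg'⟩ := exists_SLV_not_stab h0 h1
    exact ⟨g, hg, fun h => hg' h.1⟩

end H97
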