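import Mathlib
import Cfsg.Agent.Base
import Cfsg.Agent.Lib.ClassMax.Decomp
import Cfsg.Agent.Lib.Orth12.IndexTwo

/-!
Subgroups of orthogonal groups: the bridge to the matrix statements, the spaces of Eichler
transformations with a given centre, and the dihedral trick.
-/

set_option autoImplicit false
set_option linter.unusedSectionVars false

namespace H97o

open Module Cfsg H12 QuadraticMap

section Group

variable {G G' : Type*} [Group G] [Group G']

theorem isMaximalIn_map {f : G →* G'} (hf : Function.Injective f) {K H : Subgroup G}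
    (h : Geo.IsMaximalIn K H) : Geo.IsMaximalIn (K.map f) (H.map f) := by
  refine ⟨lt_of_le_of_ne (Subgroup.map_mono h.1.le)
    fun e => h.1.ne (Subgroup.map_injective hf e), fun M h1 h2 => ?_⟩
  have h3 : (M.comap f).map f = M :=
    Subgroup.map_comap_eq_self (h2.trans (Subgroup.map_le_range f K))
  rcases h.2 (M.comap f) (Subgroup.map_le_iff_le_comap.1 h1)
    ((Subgroup.comap_mono h2).trans (Subgroup.comap_map_eq_self_of_injective hf K).le) with h4 | h4
  · left; rw [← h3, h4]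
  · right; rw [← h3, h4]

theorem exists_between_map {f : G →* G'} (hf : Function.Injective f) {K H : Subgroup G}
    (h : ∃ M, H < M ∧ M < K) : ∃ M, H.map f < M ∧ M < K.map f := by
  obtain ⟨M, h1, h2⟩ := h
  exact ⟨M.map f, lt_of_le_of_ne (Subgroup.map_mono h1.le)
    fun e => h1.ne (Subgroup.map_injective hf e), lt_of_le_of_ne (Subgroup.map_mono h2.le)
    fun e => h2.ne (Subgroup.map_injective hf e)⟩

theorem map_comap_inf (f : G →* G') (K : Subgroup G') (L : Subgroup G) :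
    (K.comap f ⊓ L).map f = K ⊓ L.map f := by
  ext x
  constructor
  · rintro ⟨y, ⟨h1, h2⟩, rfl⟩
    exact ⟨h1, y, h2, rfl⟩
  · rintro ⟨h1, y, h2, rfl⟩
    exact ⟨y, ⟨h1, h2⟩, rfl⟩

theorem inv_eq_of_sq {a : G} (ha : a * a = 1) : a⁻¹ = a := inv_eq_of_mul_eq_one_right ha

theorem dih_pow {a b : G} (ha : a * a = 1) (hb : b * b = 1) (k : ℕ) :
    a * (a * b) ^ k = ((a * b) ^ k)⁻¹ * a ∧ b * (a * b) ^ k = ((a * b) ^ k)⁻¹ * b := by
  have h1 : a * (a * b) * a⁻¹ = (a * b)⁻¹ := by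
    rw [mul_inv_rev, inv_eq_of_sq ha, inv_eq_of_sq hb, ← mul_assoc, ha, one_mul]
  have h2 : b * (a * b) * b⁻¹ = (a * b)⁻¹ := by
    rw [mul_inv_rev, inv_eq_of_sq ha, inv_eq_of_sq hb, mul_assoc, mul_assoc, hb, mul_one]
  constructor
  · rw [← inv_pow, ← h1, conj_pow]; group
  · rw [← inv_pow, ← h2, conj_pow]; group

/-- Two involutions are conjugate in the group they generate, or it has a central involution. -/
theorem dihedral_cases [Finite G] {a b : G} (ha : a * a = 1) (hb : b * b = 1) :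
    (∃ k : ℕ, (a * b) ^ k * a * ((a * b) ^ k)⁻¹ = b) ∨
    ∃ N : ℕ, (a * b) ^ N ≠ 1 ∧ (a * b) ^ N * (a * b) ^ N = 1 ∧ Commute ((a * b) ^ N) a ∧
      Commute ((a * b) ^ N) b ∧
      (((∃ k : ℕ, (a * b) ^ N * b = (a * b) ^ k * a * ((a * b) ^ k)⁻¹) ∧
        ∃ k : ℕ, (a * b) ^ N * a = (a * b) ^ k * b * ((a * b) ^ k)⁻¹) ∨
      ∃ M : ℕ, (a * b) ^ N = (a * (b * a * b⁻¹)) ^ M ∧
        (a * b) ^ N * a = (a * b) ^ M * a * ((a * b) ^ M)⁻¹ ∧
        (a * b) ^ N * b = (a * b) ^ M * b * ((a * b) ^ M)⁻¹) := by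
  set r := a * b with hr
  have hca : ∀ k : ℕ, r ^ k * a * (r ^ k)⁻¹ = r ^ (2 * k) * a := fun k => by
    have := (dih_pow ha hb k).1
    rw [← hr] at this
    rw [mul_assoc, show a * (r ^ k)⁻¹ = r ^ k * a by
      rw [mul_inv_eq_iff_eq_mul, mul_assoc, this]; group, two_mul, pow_add, mul_assoc]
  have hcb : ∀ k : ℕ, r ^ k * b * (r ^ k)⁻¹ = r ^ (2 * k) * b := fun k => by
    have := (dih_pow ha hb k).2
    rw [← hr] at this
    rw [mul_assoc, show b * (r ^ k)⁻¹ = r ^ k * b by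
      rw [mul_inv_eq_iff_eq_mul, mul_assoc, this]; group, two_mul, pow_add, mul_assoc]
  have hab : a = r * b := by rw [hr, mul_assoc, hb, mul_one]
  have hpos := orderOf_pos r
  have h1 := pow_orderOf_eq_one r
  rcases Nat.even_or_odd' (orderOf r) with ⟨N, hN | hN⟩
  · right
    have hsq : r ^ N * r ^ N = 1 := by rw [← pow_add, ← two_mul, ← hN, h1]
    have hinv := inv_eq_of_sq hsq
    refine ⟨N, pow_ne_one_of_lt_orderOf (by omega) (by omega), hsq, ?_, ?_, ?_⟩
    · have := (dih_pow ha hb N).1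
      rw [← hr, hinv] at this
      exact this.symm
    · have := (dih_pow ha hb N).2
      rw [← hr, hinv] at this
      exact this.symm
    · rcases Nat.even_or_odd' N with ⟨M, hM | hM⟩
      · right
        refine ⟨M, ?_, by rw [hca, hM], by rw [hcb, hM]⟩
        rw [hM, pow_mul, inv_eq_of_sq hb, hr, pow_two]
        congr 1
        group
      · left
        refine ⟨⟨M, ?_⟩, M + 1, ?_⟩
        · rw [hca, hM, pow_succ, mul_assoc, ← hab]
        · rw [hcb, hab, ← mul_assoc, ← pow_succ, hM]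
          rfl
  · left
    refine ⟨N, ?_⟩
    rw [hca, hab, ← mul_assoc, ← pow_succ, ← hN, h1, one_mul]

/-- The dihedral trick. -/
theorem le_of_dihedral [Finite G] {X H : Subgroup G} (hHX : H ≤ X) (T S : Set G)
    (hT : ∀ t ∈ T, t ∈ H ∧ t * t = 1) (hS : ∀ s ∈ S, s ∈ H ∧ s * s = 1 ∧ s ∉ T)
    (hb : ∀ g ∈ X, ∀ t ∈ T, g * t * g⁻¹ ∈ H → g ∈ H)
    (hc : ∀ g ∈ H, ∀ t ∈ T, g * t * g⁻¹ ∈ T)
    (hd : ∀ s ∈ S, ∀ g ∈ X, Commute g s → g ∈ H)
    (he : ∀ t ∈ T, ∀ s, s ∈ S ∨ s ∈ T → t * s ≠ 1 → ∀ g ∈ X, Commute g (t * s) → g ∈ H)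
    (hf : ∃ s₁ ∈ S, ∃ s₂ ∈ S, s₁ * s₂ ∈ T) : X ≤ H := by
  have hTX : ∀ g ∈ X, ∀ t ∈ T, g * t * g⁻¹ ∈ H → g * t * g⁻¹ ∈ T := fun g hg t ht h =>
    hc g (hb g hg t ht h) t ht
  intro g hg
  by_contra hgH
  obtain ⟨s₁, h1, s₂, h2, ht⟩ := hf
  have key : ∀ s ∈ S, g * s * g⁻¹ ∈ H := by
    intro s hs
    set t := s₁ * s₂
    obtain ⟨htH, ht2⟩ := hT t ht
    obtain ⟨hsH, hs2, hsT⟩ := hS s hs
    have hsX : g * s * g⁻¹ ∈ X := X.mul_mem (X.mul_mem hg (hHX hsH)) (X.inv_mem hg)
    have hs'2 : g * s * g⁻¹ * (g * s * g⁻¹) = 1 := by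
      rw [conj_mul, hs2]; group
    have hrX : ∀ k : ℕ, (t * (g * s * g⁻¹)) ^ k ∈ X := fun k =>
      X.pow_mem (X.mul_mem (hHX htH) hsX) k
    rcases dihedral_cases ht2 hs'2 with ⟨k, hk⟩ | ⟨N, hN1, hN2, hNa, hNb, ⟨⟨k, hk⟩, -⟩ | ⟨M, -, hM, -⟩⟩
    · exfalso
      have e : (g⁻¹ * (t * (g * s * g⁻¹)) ^ k) * t * (g⁻¹ * (t * (g * s * g⁻¹)) ^ k)⁻¹ = s := by
        rw [mul_inv_rev, show ∀ x y z w u : G, x * y * z * (w * u) = x * (y * z * w) * u from
          fun _ _ _ _ _ => by group, hk]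
        group
      exact hsT (e ▸ hTX _ (X.mul_mem (X.inv_mem hg) (hrX k)) t ht (e.symm ▸ hsH))
    · exfalso
      set c := (t * (g * s * g⁻¹)) ^ N
      have hcX : g⁻¹ * c * g ∈ X := X.mul_mem (X.mul_mem (X.inv_mem hg) (hrX N)) hg
      have hcs : Commute (g⁻¹ * c * g) s := by
        have := hNb.eq
        show g⁻¹ * c * g * s = s * (g⁻¹ * c * g)
        calc g⁻¹ * c * g * s = g⁻¹ * (c * (g * s * g⁻¹)) * g := by group
          _ = s * (g⁻¹ * c * g) := by rw [this]; group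
      have hcH := hd s hs _ hcX hcs
      have e : (g⁻¹ * (t * (g * s * g⁻¹)) ^ k) * t * (g⁻¹ * (t * (g * s * g⁻¹)) ^ k)⁻¹ =
          g⁻¹ * c * g * s := by
        rw [mul_inv_rev, show ∀ x y z w u : G, x * y * z * (w * u) = x * (y * z * w) * u from
          fun _ _ _ _ _ => by group, ← hk]
        group
      have hT1 := hTX _ (X.mul_mem (X.inv_mem hg) (hrX k)) t ht (e.symm ▸ H.mul_mem hcH hsH)
      rw [e] at hT1
      have e2 : g⁻¹ * c * g * s * s = g⁻¹ * c * g := by rw [mul_assoc _ s, hs2, mul_one]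
      have h3 := he _ hT1 s (Or.inl hs) (by
        rw [e2]
        intro h
        apply hN1
        calc c = g * (g⁻¹ * c * g) * g⁻¹ := by group
          _ = 1 := by rw [h]; group) (g⁻¹ * t * g)
        (X.mul_mem (X.mul_mem (X.inv_mem hg) (hHX htH)) hg) (by
          rw [e2]
          have := hNa.eq
          show g⁻¹ * t * g * (g⁻¹ * c * g) = g⁻¹ * c * g * (g⁻¹ * t * g)
          calc g⁻¹ * t * g * (g⁻¹ * c * g) = g⁻¹ * (t * c) * g := by group
            _ = _ := by rw [← this]; group)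
      exact hgH (by simpa using H.inv_mem (hb g⁻¹ (X.inv_mem hg) t ht (by simpa using h3)))
    · set c := (t * (g * s * g⁻¹)) ^ N
      have hcH : c ∈ H := hb c (hrX N) t ht (by rw [hNa.eq]; simpa using htH)
      have hT1 : c * t ∈ T := hM ▸ hTX _ (hrX M) t ht (hM ▸ H.mul_mem hcH htH)
      have e2 : c * t * t = c := by rw [mul_assoc, ht2, mul_one]
      exact he _ hT1 t (Or.inr ht) (by rw [e2]; exact hN1) _ hsX (by rw [e2]; exact hNb.symm)
  refine hgH (hb g hg _ ht ?_)
  rw [← conj_mul]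
  exact H.mul_mem (key _ h1) (key _ h2)

/-- The elements centralising `C` that lie in `X` up to a factor from `C`. -/
def comp (X C : Subgroup G) : Subgroup G where
  carrier := {g | (∀ c ∈ C, Commute g c) ∧ ∃ h ∈ C, g * h ∈ X}
  mul_mem' := by
    rintro a b ⟨h1, c, hc, h2⟩ ⟨h3, d, hd, h4⟩
    refine ⟨fun x hx => (h1 x hx).mul_left (h3 x hx), c * d, C.mul_mem hc hd, ?_⟩
    have := X.mul_mem h2 h4
    rwa [mul_assoc, ← mul_assoc c, ← (h3 c hc).eq, ← mul_assoc, ← mul_assoc, mul_assoc _ c] at this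
  one_mem' := ⟨fun c _ => Commute.one_left c, 1, C.one_mem, by simp⟩
  inv_mem' := by
    rintro a ⟨h1, c, hc, h2⟩
    refine ⟨fun x hx => (h1 x hx).inv_left, c⁻¹, C.inv_mem hc, ?_⟩
    have := X.inv_mem h2
    rwa [(h1 c hc).eq, mul_inv_rev] at this

theorem mem_comp {X C : Subgroup G} {g : G} :
    g ∈ comp X C ↔ (∀ c ∈ C, Commute g c) ∧ ∃ h ∈ C, g * h ∈ X := Iff.rfl

/-- The part of `X` normalised by the involution `a`, extended by `a`. -/
def extBy (X : Subgroup G) (a : G) (ha : a * a = 1) : Subgroup G where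
  carrier := {g | (g ∈ X ∧ a * g * a ∈ X) ∨ (g * a ∈ X ∧ a * g ∈ X)}
  mul_mem' := by
    have e : ∀ x y : G, x * y = x * a * (a * y) := fun x y => by
      rw [mul_assoc, ← mul_assoc a, ha, one_mul]
    rintro x y (⟨h1, h2⟩ | ⟨h1, h2⟩) (⟨h3, h4⟩ | ⟨h3, h4⟩)
    · refine Or.inl ⟨X.mul_mem h1 h3, ?_⟩
      have := X.mul_mem h2 h4
      rwa [mul_assoc a y, ← e, ← mul_assoc, mul_assoc a] at this
    · refine Or.inr ⟨by rw [mul_assoc]; exact X.mul_mem h1 h3, ?_⟩
      have := X.mul_mem h2 h4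
      rwa [← e, mul_assoc] at this
    · refine Or.inr ⟨?_, by rw [← mul_assoc]; exact X.mul_mem h2 h3⟩
      have := X.mul_mem h1 h4
      rwa [mul_assoc a y, ← e, ← mul_assoc] at this
    · refine Or.inl ⟨by rw [e]; exact X.mul_mem h1 h4, ?_⟩
      have := X.mul_mem h2 h3
      rwa [← mul_assoc, mul_assoc a] at this
  one_mem' := Or.inl ⟨X.one_mem, by rw [mul_one, ha]; exact X.one_mem⟩
  inv_mem' := by
    have e := inv_eq_of_sq ha
    rintro x (⟨h1, h2⟩ | ⟨h1, h2⟩)
    · refine Or.inl ⟨X.inv_mem h1, ?_⟩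
      have := X.inv_mem h2
      rwa [mul_inv_rev, mul_inv_rev, e, ← mul_assoc] at this
    · refine Or.inr ⟨?_, ?_⟩
      · have := X.inv_mem h2
        rwa [mul_inv_rev, e] at this
      · have := X.inv_mem h1
        rwa [mul_inv_rev, e] at this

theorem mem_extBy {X : Subgroup G} {a : G} {ha : a * a = 1} {g : G} :
    g ∈ extBy X a ha ↔ (g ∈ X ∧ a * g * a ∈ X) ∨ (g * a ∈ X ∧ a * g ∈ X) := Iff.rfl

end Group

section Bridge

variable {F : Type*} [Field F] {ι : Type} [Fintype ι] [DecidableEq ι]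

theorem omegaGL_eq (Q : QuadraticForm F (ι → F)) :
    Geo.omegaGL Q = H97.pull ((Om Q).map (O Q).subtype) := by
  have h : isometryGroup F Q = H97.pull (O Q) := by
    rw [H97.isometryGroup_eq]
    congr 1
    ext g
    rw [H28.PQ.mem_isom_ofQuad]
    rfl
  rw [Geo.omegaGL, Subgroup.map_subtype_commutator, Subgroup.map_subtype_commutator, h,
    H97.pull_commutator]

theorem isMaximalIn_omega {Q : QuadraticForm F (ι → F)} {K : Subgroup ((ι → F) ≃ₗ[F] (ι → F))}
    (h : Geo.IsMaximalIn (Om Q) (K.comap (O Q).subtype ⊓ Om Q)) :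
    Geo.IsMaximalIn (Geo.omegaGL Q) (H97.pull K ⊓ Geo.omegaGL Q) := by
  rw [omegaGL_eq, ← H97.pull_inf, ← map_comap_inf]
  exact H97.isMaximalIn_pull (isMaximalIn_map Subtype.val_injective h)

theorem exists_between_omega {Q : QuadraticForm F (ι → F)}
    {K : Subgroup ((ι → F) ≃ₗ[F] (ι → F))}
    (h : ∃ M, K.comap (O Q).subtype ⊓ Om Q < M ∧ M < Om Q) :
    ∃ M, H97.pull K ⊓ Geo.omegaGL Q < M ∧ M < Geo.omegaGL Q := by
  rw [omegaGL_eq, ← H97.pull_inf, ← map_comap_inf]
  exact H97.exists_between_pull (exists_between_map Subtype.val_injective h)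

theorem nondeg_of_sep {V : Type*} [AddCommGroup V] [Module F V] {Q : QuadraticForm F V}
    (h : (polarBilin Q).SeparatingLeft) : Nondeg Q := fun v hv => h v fun w => by simpa using hv w

end Bridge

section Orth

variable {F V : Type*} [Field F] [AddCommGroup V] [Module F V] {Q : QuadraticForm F V}

/-- The vectors orthogonal to `u`. -/
def orth (Q : QuadraticForm F V) (u : V) : Submodule F V := LinearMap.ker (polarBilin Q u)

theorem mem_orth {u x : V} : x ∈ orth Q u ↔ polar Q u x = 0 := by simp [orth]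

theorem B_symm {x y : V} (h : polar Q x y = 0) : polar Q y x = 0 := by rw [polar_comm]; exact h

theorem B_symm_ne {x y : V} (h : polar Q x y ≠ 0) : polar Q y x ≠ 0 := by
  rw [polar_comm]; exact h

theorem B_sing {d : V} (h : Q d = 0) : polar Q d d = 0 := by rw [B_self, h, mul_zero]

theorem commute_refl {g : O Q} {v : V} {c : F} (hc : c ≠ 0) (h : g.1 v = c • v) :
    Commute g (refl Q v) := by
  have := refl_conj g v
  rw [h, refl_smul hc, mul_inv_eq_iff_eq_mul] at this
  exact this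

theorem commute_refl_of_fix {g : O Q} {v : V} (h : g.1 v = v) : Commute g (refl Q v) :=
  commute_refl one_ne_zero (by rw [h, one_smul])

theorem commute_refl_refl {v w : V} (h : polar Q v w = 0) : Commute (refl Q v) (refl Q w) :=
  commute_refl_of_fix (refl_apply_of_orth (B_symm h))

theorem exists_smul_of_refl_eq (hQ : Nondeg Q) {v w : V} (hv : Q v ≠ 0)
    (h : refl Q v = refl Q w) : ∃ c : F, v = c • w := by
  obtain ⟨x, hx⟩ := hQ.exists_B_eq (ne_zero_of_Q_ne hv) (Q v)
  have := congrArg (fun g : O Q => g.1 x) h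
  simp only [refl_apply] at this
  rw [polar_comm _ x v, hx, inv_mul_cancel₀ hv, one_smul, sub_right_inj] at this
  exact ⟨_, this⟩

theorem eq_or_neg_of_smul {g : O Q} {v : V} (hv : Q v ≠ 0) {c : F} (h : g.1 v = c • v) :
    g.1 v = v ∨ g.1 v = -v := by
  have h1 := O.map_Q g v
  rw [h, Q_smul] at h1
  have h2 : c * c = 1 := mul_right_cancel₀ hv (by rw [one_mul, ← pow_two, h1])
  rcases mul_self_eq_one_iff.1 h2 with rfl | rfl
  · left; rw [h, one_smul]
  · right; rw [h, neg_one_smul]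

theorem eq_or_neg_of_commute (hQ : Nondeg Q) {g : O Q} {v : V} (hv : Q v ≠ 0)
    (h : Commute g (refl Q v)) : g.1 v = v ∨ g.1 v = -v := by
  have h1 := refl_conj g v
  rw [h.eq, mul_inv_cancel_right] at h1
  obtain ⟨c, hc⟩ := exists_smul_of_refl_eq hQ (v := g.1 v) (by rwa [O.map_Q]) h1.symm
  exact eq_or_neg_of_smul hv hc

theorem eq_zero_of_eq_neg (h2 : (2 : F) ≠ 0) {x : V} (h : x = -x) : x = 0 := by
  rw [eq_neg_iff_add_eq_zero, ← two_smul F x, smul_eq_zero] at h
  exact h.resolve_left h2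

/-- The isometries whose displacements lie in `W`. -/
def movIn (Q : QuadraticForm F V) (W : Submodule F V) : Subgroup (O Q) where
  carrier := {g | ∀ x, x - g.1 x ∈ W}
  mul_mem' {a b} ha hb x := by
    have := W.add_mem (hb x) (ha (b.1 x))
    rwa [sub_add_sub_cancel] at this
  one_mem' x := by simp
  inv_mem' {a} ha x := by
    have := W.neg_mem (ha ((a⁻¹).1 x))
    rwa [O.apply_inv_apply, neg_sub] at this

theorem mem_movIn {W : Submodule F V} {g : O Q} : g ∈ movIn Q W ↔ ∀ x, x - g.1 x ∈ W := Iff.rfl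

theorem refl_mem_movIn {W : Submodule F V} {v : V} (h : v ∈ W) : refl Q v ∈ movIn Q W :=
  fun x => by rw [refl_apply, sub_sub_cancel]; exact W.smul_mem _ h

theorem movIn_mono {W W' : Submodule F V} (h : W ≤ W') : movIn Q W ≤ movIn Q W' :=
  fun _ hg x => h (hg x)

theorem movIn_apply {W : Submodule F V} {g : O Q} (hg : g ∈ movIn Q W) {x : V} (hx : x ∈ W) :
    g.1 x ∈ W := by
  have := W.sub_mem hx (hg x)
  rwa [sub_sub_cancel] at this

theorem movIn_fix (hQ : Nondeg Q) {W : Submodule F V} {g : O Q} (hg : g ∈ movIn Q W) {x : V}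
    (hx : ∀ w ∈ W, polar Q x w = 0) : g.1 x = x :=
  O.fix_of_B_sub hQ g fun y => hx _ (hg y)

theorem movIn_conj {W : Submodule F V} {g : O Q} (hg : g ∈ movIn Q W) (k : O Q) :
    k * g * k⁻¹ ∈ movIn Q (W.map (k.1 : V →ₗ[F] V)) := fun x =>
  ⟨(k⁻¹).1 x - g.1 ((k⁻¹).1 x), hg _, by
    simp only [O.mul_apply, LinearEquiv.coe_coe, map_sub, O.apply_inv_apply]⟩

/-- The vectors `w` all of whose multiples give Eichler transformations with centre `d` in `X`. -/
def TF (X : Subgroup (O Q)) (d : V) : Submodule F V where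
  carrier := {w | polar Q d w = 0 ∧ ∀ c : F, eich Q d (c • w) ∈ X}
  add_mem' {a b} ha hb := by
    refine ⟨by rw [polar_add_right, ha.1, hb.1, add_zero], fun c => ?_⟩
    by_cases hd : Q d = 0
    · rw [smul_add, eich_add hd (by rw [B_smul_right, ha.1, mul_zero])
        (by rw [B_smul_right, hb.1, mul_zero])]
      exact X.mul_mem (ha.2 c) (hb.2 c)
    · rw [eich_of_not fun h => hd h.1]; exact X.one_mem
  zero_mem' := ⟨polar_zero_right _ _, fun c => by rw [smul_zero, eich_zero]; exact X.one_mem⟩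
  smul_mem' c a ha := ⟨by rw [B_smul_right, ha.1, mul_zero], fun c' => by
    rw [smul_smul]; exact ha.2 _⟩

variable {X : Subgroup (O Q)}

theorem mem_TF {d w : V} : w ∈ TF X d ↔ polar Q d w = 0 ∧ ∀ c : F, eich Q d (c • w) ∈ X := Iff.rfl

theorem self_mem_TF {d : V} (hd : Q d = 0) : d ∈ TF X d :=
  ⟨B_sing hd, fun c => by rw [eich_smul_self hd]; exact X.one_mem⟩

theorem TF_apply {g : O Q} (hg : g ∈ X) {d w : V} (h : w ∈ TF X d) : g.1 w ∈ TF X (g.1 d) :=
  ⟨by rw [O.map_B, h.1], fun c => by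
    rw [← map_smul, ← eich_conj]
    exact X.mul_mem (X.mul_mem hg (h.2 c)) (X.inv_mem hg)⟩

theorem TF_smul {d w : V} (h : w ∈ TF X d) (a : F) : w ∈ TF X (a • d) := by
  refine ⟨by rw [B_smul_left, h.1, mul_zero], fun c => ?_⟩
  by_cases hd : Q d = 0
  · rw [eich_smul_left hd (by rw [B_smul_right, h.1, mul_zero]), smul_smul]
    exact h.2 _
  · by_cases ha : a = 0
    · rw [ha, zero_smul, eich_zero_left]; exact X.one_mem
    · rw [eich_of_not fun h => by
        rw [Q_smul] at h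
        exact mul_ne_zero (pow_ne_zero 2 ha) hd h.1]
      exact X.one_mem

theorem TF_inv {g : O Q} (hg : g ∈ X) {d w : V} {a : F} (ha : a ≠ 0) (hd : g.1 d = a • d)
    (h : w ∈ TF X d) : g.1 w ∈ TF X d := by
  have := TF_smul (TF_apply hg h) a⁻¹
  rwa [hd, smul_smul, inv_mul_cancel₀ ha, one_smul] at this

theorem TF_fix {g : O Q} (hg : g ∈ X) {d w : V} (hd : g.1 d = d) (h : w ∈ TF X d) :
    g.1 w ∈ TF X d := TF_inv hg one_ne_zero (by rw [hd, one_smul]) h

theorem mem_TF_of_refl {d w : V} (hd : Q d = 0) (hw : Q w ≠ 0) (hdw : polar Q d w = 0)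
    (h : ∀ c : F, refl Q (w + c • d) * refl Q w ∈ X) : w ∈ TF X d := by
  refine ⟨hdw, fun c => ?_⟩
  by_cases hc : c = 0
  · rw [hc, zero_smul, eich_zero]; exact X.one_mem
  rw [eich_eq_refl_mul_refl hd (by rw [B_smul_right, hdw, mul_zero])
    (by rw [Q_smul]; exact mul_ne_zero (pow_ne_zero 2 hc) hw), refl_smul hc, Q_smul,
    show c • w + (c ^ 2 * Q w) • d = c • (w + (c * Q w) • d) by module, refl_smul hc]
  exact h _

/-- If a reflection moves a vector of a subspace inside it, its axis lies in the subspace. -/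
theorem mem_of_refl_mem {T : Submodule F V} {u w : V} (hu : Q u ≠ 0) (huw : polar Q w u ≠ 0)
    (hw : w ∈ T) (h : (refl Q u).1 w ∈ T) : u ∈ T := by
  have := T.sub_mem hw h
  rw [refl_apply, sub_sub_cancel] at this
  exact (T.smul_mem_iff (mul_ne_zero (inv_ne_zero hu) huw)).1 this

variable [FiniteDimensional F V]

theorem finrank_inf_orth (W : Submodule F V) (u : V) :
    finrank F W ≤ finrank F ↥(W ⊓ orth Q u) + 1 := H97.finrank_inf_ker W _

theorem exists_notMem_of_lt {W U : Submodule F V} (h : finrank F U < finrank F W) :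
    ∃ x ∈ W, x ∉ U := by
  by_contra h1
  push Not at h1
  exact absurd (Submodule.finrank_mono h1) (by omega)

theorem exists_sing_notMem [Finite F] (Q : QuadraticForm F V) (W U : Submodule F V)
    (h : finrank F U + 3 ≤ finrank F W) : ∃ x ∈ W, x ∉ U ∧ Q x = 0 := by
  obtain ⟨x, h1, h2, h3⟩ := (H97.isoK_quad Q).exists_notMem W U h
  exact ⟨x, h1, h2, H97.ofQuad_q_mem.1 h3⟩

theorem exists_sing_in [Finite F] (Q : QuadraticForm F V) (W : Submodule F V)
    (h : 3 ≤ finrank F W) : ∃ x ∈ W, x ≠ 0 ∧ Q x = 0 := by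
  obtain ⟨x, h1, h2, h3⟩ := exists_sing_notMem Q W ⊥ (by simpa using h)
  exact ⟨x, h1, by simpa using h2, h3⟩

theorem finiteO [Finite F] (Q : QuadraticForm F V) : Finite (O Q) := by
  have : Finite V := Module.finite_of_finite F
  exact Finite.of_injective (fun g : O Q => (g.1 : V → V))
    fun a b h => O.ext fun v => congrFun h v

theorem refl_notMem_Om (hQ : Nondeg Q) (hG : Good Q) {v : V} (hv : Q v ≠ 0) :
    refl Q v ∉ Om Q := fun h => by
  have := Abelianization.commutator_subset_ker (dk hQ hG) h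
  rw [MonoidHom.mem_ker, dk_refl hQ hG hv] at this
  exact absurd this (by decide)

theorem rr_mem_Om (hQ : Nondeg Q) {v w : V} (h : Q w = Q v) : refl Q w * refl Q v ∈ Om Q := by
  by_cases hv : Q v = 0
  · rw [refl_of_Q_eq_zero hv, refl_of_Q_eq_zero (h.trans hv), one_mul]; exact (Om Q).one_mem
  · exact refl_mul_refl_mem_Om hQ hv one_ne_zero (by rw [h]; ring)

theorem Om_comm {a b : O Q} (h : a * b ∈ Om Q) : b * a ∈ Om Q :=
  Subgroup.Normal.mem_comm inferInstance h

theorem exists_comp (hQ : Nondeg Q) (hG : Good Q) {C : Subgroup (O Q)}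
    (h : ∀ v, Q v ≠ 0 → ∃ k ∈ C, refl Q v * k ∈ Om Q) (g : O Q) : ∃ k ∈ C, g * k ∈ Om Q := by
  induction g using refl_induction hQ hG with
  | h1 => exact ⟨1, C.one_mem, by simp⟩
  | hmul v g hv ih =>
    obtain ⟨k, hk, h1⟩ := ih
    obtain ⟨l, hl, h2⟩ := h v hv
    refine ⟨k * l, C.mul_mem hk hl, ?_⟩
    have := (Om Q).mul_mem (Subgroup.Normal.conj_mem inferInstance _ h1 (refl Q v)) h2
    rwa [show refl Q v * (g * k) * (refl Q v)⁻¹ * (refl Q v * l) = refl Q v * g * (k * l) by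
      group] at this

theorem Om_le_of_TF (hQ : Nondeg Q) (hG : Good Q) (hn : finrank F V ≠ 2) {d f : V}
    (hd : Q d = 0) (hf : Q f = 0) (hdf : polar Q d f ≠ 0)
    (h1 : ∀ w, polar Q d w = 0 → w ∈ TF X d) (h2 : ∀ w, polar Q f w = 0 → w ∈ TF X f) :
    Om Q ≤ X := by
  have hh : IsHyp Q d ((polar Q d f)⁻¹ • f) :=
    ⟨hd, by rw [Q_smul, hf, mul_zero], by rw [B_smul_right, inv_mul_cancel₀ hdf]⟩
  refine hh.Om_le hQ hG hn (fun w hw => ?_) fun w hw => ?_
  · simpa using (h1 w (mem_perp.1 hw).1).2 1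
  · have h3 := (mem_perp.1 hw).2
    rw [B_smul_left] at h3
    simpa using (TF_smul (h2 w ((mul_eq_zero.1 h3).resolve_left (inv_ne_zero hdf))) _).2 1

theorem Om_le_of_TF' (hQ : Nondeg Q) (hG : Good Q) (hn : finrank F V ≠ 2) {d : V}
    (hd : Q d = 0) (h1 : ∀ w, polar Q d w = 0 → w ∈ TF X d) {g : O Q} (hg : g ∈ X)
    (hdf : polar Q d (g.1 d) ≠ 0) : Om Q ≤ X :=
  Om_le_of_TF hQ hG hn hd (by rw [O.map_Q, hd]) hdf h1 fun w hw => by
    have := TF_apply hg (h1 ((g⁻¹).1 w) (by rw [← O.B_apply_left, hw]))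
    rwa [O.apply_inv_apply] at this

/-- The dihedral group generated by a reflection and an involution. -/
theorem refl_invol_cases [Finite F] (hQ : Nondeg Q) (h2 : (2 : F) ≠ 0) {τ : O Q} (hτ : τ ∈ X)
    (hτ2 : τ * τ = 1) (hne : ∀ v, Q v ≠ 0 → τ ≠ refl Q v) {a b : V} (ha : τ.1 a = a)
    (hb : τ.1 b = -b) (hu : Q (a + b) ≠ 0)
    (hX : refl Q (a + b) ∈ X) :
    (∃ c : F, Q (c • a) = Q (a + b) ∧ refl Q a ∈ X) ∨
    (∃ c : F, Q (c • b) = Q (a + b) ∧ refl Q b ∈ X) ∨
    ∃ c ∈ X, c.1 a = -a ∧ c.1 b = -b ∧ c ∈ movIn Q (Submodule.span F {a, b}) ∧ Commute c τ := by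
  have := finiteO Q
  set P : Submodule F V := Submodule.span F {a, b}
  have haP : a ∈ P := Submodule.subset_span (by simp)
  have hbP : b ∈ P := Submodule.subset_span (by simp)
  have hrX : ∀ k : ℕ, (refl Q (a + b) * τ) ^ k ∈ X := fun k => X.pow_mem (X.mul_mem hX hτ) k
  have hsplit : ∀ (g : O Q) (ε : F), Commute g τ → g.1 (a + b) = ε • (a + b) →
      g.1 a = ε • a ∧ g.1 b = ε • b := by
    intro g ε h1 h3
    have h4 := congrArg (fun k : O Q => k.1 (a + b)) h1.eq
    simp only [O.mul_apply] at h4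
    rw [h3] at h4
    simp only [map_add, map_smul, ha, hb, map_neg] at h4
    rw [map_add] at h3
    constructor
    · refine smul_right_injective V h2 ?_
      beta_reduce
      linear_combination (norm := module) h3 + h4
    · refine smul_right_injective V h2 ?_
      beta_reduce
      linear_combination (norm := module) h3 - h4
  rcases dihedral_cases (refl_mul_self (Q := Q) (a + b)) hτ2 with
    ⟨k, hk⟩ | ⟨N, hN1, hN2, hNa, hNb, ⟨⟨k, hk⟩, -⟩ | ⟨M, hM, -, -⟩⟩
  · rw [refl_conj] at hk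
    exact absurd hk.symm (hne _ (by rwa [O.map_Q]))
  · rw [refl_conj] at hk
    set v := ((refl Q (a + b) * τ) ^ k).1 (a + b) with hv
    have hvq : Q v = Q (a + b) := O.map_Q _ _
    have hvP : v ∈ P := by
      have h3 : ∀ j : ℕ, ∀ x ∈ P, ((refl Q (a + b) * τ) ^ j).1 x ∈ P := by
        intro j
        induction j with
        | zero => exact fun x hx => hx
        | succ j ih =>
          intro x hx
          rw [pow_succ, O.mul_apply, O.mul_apply]
          refine ih _ (movIn_apply (refl_mem_movIn (P.add_mem haP hbP)) ?_)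
          obtain ⟨s, t, rfl⟩ := Submodule.mem_span_pair.1 hx
          rw [map_add, map_smul, map_smul, ha, hb]
          exact P.add_mem (P.smul_mem _ haP) (P.smul_mem _ (P.neg_mem hbP))
      exact h3 k _ (P.add_mem haP hbP)
    have hvX : refl Q v ∈ X := hk ▸ X.mul_mem (hrX N) hτ
    obtain ⟨s, t, hst⟩ := Submodule.mem_span_pair.1 hvP
    have h5 : Commute τ (refl Q v) := hk ▸ hNb.symm.mul_right (Commute.refl τ)
    rcases eq_or_neg_of_commute hQ (hvq ▸ hu) h5 with h6 | h6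
    · left
      rw [← hst, map_add, map_smul, map_smul, ha, hb] at h6
      have h7 : t • b = 0 := eq_zero_of_eq_neg h2 (by linear_combination (norm := module) -h6)
      rw [h7, add_zero] at hst
      have hs : s ≠ 0 := by
        rintro rfl
        rw [zero_smul] at hst
        rw [← hst, map_zero] at hvq
        exact hu hvq.symm
      exact ⟨s, by rw [hst, hvq], by rwa [← hst, refl_smul hs] at hvX⟩
    · right; left
      rw [← hst, map_add, map_smul, map_smul, ha, hb] at h6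
      have h7 : s • a = 0 := eq_zero_of_eq_neg h2 (by linear_combination (norm := module) h6)
      rw [h7, zero_add] at hst
      have hs : t ≠ 0 := by
        rintro rfl
        rw [zero_smul] at hst
        rw [← hst, map_zero] at hvq
        exact hu hvq.symm
      exact ⟨t, by rw [hst, hvq], by rwa [← hst, refl_smul hs] at hvX⟩
  · right; right
    set c := (refl Q (a + b) * τ) ^ N
    have hcP : c ∈ movIn Q P := by
      rw [hM, refl_conj]
      refine (movIn Q P).pow_mem ((movIn Q P).mul_mem (refl_mem_movIn (P.add_mem haP hbP))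
        (refl_mem_movIn ?_)) M
      rw [map_add, ha, hb]
      exact P.add_mem haP (P.neg_mem hbP)
    rcases eq_or_neg_of_commute hQ hu hNa with h6 | h6
    · exfalso
      obtain ⟨h7, h8⟩ := hsplit c 1 hNb (by rw [h6, one_smul])
      refine hN1 (O.ext fun x => ?_)
      obtain ⟨s, t, hst⟩ := Submodule.mem_span_pair.1 (hcP x)
      have h9 := congrArg c.1 hst
      rw [map_add, map_smul, map_smul, h7, h8, one_smul, one_smul, hst, map_sub,
        ← O.mul_apply, hN2, O.one_apply] at h9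
      have := eq_zero_of_eq_neg h2 (x := x - c.1 x) (by rw [neg_sub]; exact h9)
      rw [O.one_apply]
      exact (sub_eq_zero.1 this).symm
    · obtain ⟨h7, h8⟩ := hsplit c (-1) hNb (by rw [h6, neg_one_smul])
      exact ⟨c, hrX N, by rw [h7, neg_one_smul], by rw [h8, neg_one_smul], hcP, hNb⟩

/-- The stabiliser of a family of subspaces in the orthogonal group. -/
def Hh {κ : Type*} (Q : QuadraticForm F V) (D : κ → Submodule F V) : Subgroup (O Q) :=
  (H97.dstab D).comap (O Q).subtype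

/-- The stabiliser of a subspace in the orthogonal group. -/
def St (Q : QuadraticForm F V) (W : Submodule F V) : Subgroup (O Q) :=
  (H97.stab W).comap (O Q).subtype

theorem mem_St {W : Submodule F V} {g : O Q} : g ∈ St Q W ↔ ∀ x ∈ W, g.1 x ∈ W :=
  ⟨fun h x hx => (H97.mem_stab.1 h x).1 hx, fun h => H97.mem_stab_of_maps h⟩

theorem Hh_elim {κ : Type*} {D : κ → Submodule F V} {g : O Q} (hg : g ∈ Hh Q D) :
    ∃ π : Equiv.Perm κ, ∀ i x, x ∈ D i ↔ g.1 x ∈ D (π i) := by
  obtain ⟨π, h⟩ := H97.mem_dstab.1 hg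
  exact ⟨π, fun i x => by rw [← h]; exact H97.mem_map_le.symm⟩

theorem mem_Hh_of_maps {κ : Type*} [Finite κ] {D : κ → Submodule F V}
    (hinj : Function.Injective D) (hd : ∀ i j, finrank F (D i) = finrank F (D j)) {g : O Q}
    (h : ∀ i, ∃ j, ∀ x ∈ D i, g.1 x ∈ D j) : g ∈ Hh Q D :=
  H97.mem_dstab_of_maps hinj hd h

theorem mem_Hh_of_stab {κ : Type*} {D : κ → Submodule F V} {g : O Q}
    (h : ∀ i, ∀ x ∈ D i, g.1 x ∈ D i) : g ∈ Hh Q D :=
  H97.mem_dstab_of_stab fun i => H97.mem_stab_of_maps (h i)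

theorem B_of_ts {U : Submodule F V} (hU : ∀ u ∈ U, Q u = 0) {x y : V} (hx : x ∈ U) (hy : y ∈ U) :
    polar Q x y = 0 := by
  have := hU _ (U.add_mem hx hy)
  rwa [Q_add, hU x hx, hU y hy, zero_add, zero_add] at this

theorem finrank_span_pair_le (x y : V) : finrank F (Submodule.span F ({x, y} : Set V)) ≤ 2 := by
  classical
  exact (finrank_span_le_card ({x, y} : Set V)).trans
    (by rw [Set.toFinset_insert, Set.toFinset_singleton]; exact Finset.card_le_two)

theorem exists_O_family (hQ : Nondeg Q) {ι : Type*} [Finite ι] (u v : ι → V)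
    (hu : LinearIndependent F u) (hv : LinearIndependent F v)
    (h : ∀ i j, i ≠ j → polar Q (v i) (v j) = polar Q (u i) (u j)) (hq : ∀ i, Q (v i) = Q (u i)) :
    ∃ g : O Q, ∀ i, g.1 (u i) = v i := by
  obtain ⟨g, h1, h2⟩ := H28.witt_quad_family Q (nondeg_iff.1 hQ).1 u v hu hv h hq
  exact ⟨⟨g, h1⟩, h2⟩

end Orth

end H97o
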