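import Mathlib
import Cfsg.Agent.Base
import Cfsg.Agent.Lib.ClassMax.OBase

/-!
Non-degenerate subspaces of a quadratic space: small existence lemmas.
-/

set_option autoImplicit false
set_option linter.unusedSectionVars false
set_option linter.unusedVariables false

namespace H97o

open Module Cfsg H12 QuadraticMap

variable {F V : Type*} [Field F] [AddCommGroup V] [Module F V] {Q : QuadraticForm F V}

/-- The polar form is non-degenerate on `W`. -/
def NdOn (Q : QuadraticForm F V) (W : Submodule F V) : Prop :=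
  ∀ x ∈ W, (∀ y ∈ W, polar Q x y = 0) → x = 0

theorem polar_restrict (W : Submodule F V) (x y : W) :
    polar (Q.restrict W) x y = polar Q (x : V) y := rfl

theorem Q_add_orth {x y : V} (h : polar Q x y = 0) : Q (x + y) = Q x + Q y := by
  rw [Q_add, h, add_zero]

theorem notMem_span_of_Q {x d : V} (hx : Q x ≠ 0) (hd : Q d = 0) : x ∉ F ∙ d := fun h => by
  obtain ⟨c, rfl⟩ := Submodule.mem_span_singleton.1 h
  exact hx (by rw [Q_smul, hd, mul_zero])

theorem notMem_span_of_sing {x d : V} (hx : Q x ≠ 0) (hd : Q d = 0) (hd0 : d ≠ 0) : d ∉ F ∙ x :=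
  fun h => by
    obtain ⟨c, rfl⟩ := Submodule.mem_span_singleton.1 h
    rw [Q_smul, mul_eq_zero] at hd
    exact hd0 (by rw [pow_eq_zero_iff two_ne_zero |>.1 (hd.resolve_right hx), zero_smul])

theorem notMem_span_of_orth (h2 : (2 : F) ≠ 0) {x z : V} (hx : Q x ≠ 0) (hz : z ≠ 0)
    (h : polar Q x z = 0) : z ∉ F ∙ x := fun h1 => by
  obtain ⟨c, rfl⟩ := Submodule.mem_span_singleton.1 h1
  rw [B_smul_right, B_self, mul_eq_zero] at h
  exact hz (by rw [h.resolve_right (mul_ne_zero h2 hx), zero_smul])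

theorem add_notMem_span {a z : V} (h : z ∉ F ∙ a) : a + z ∉ F ∙ a := fun h1 =>
  h (by simpa using Submodule.sub_mem _ h1 (Submodule.mem_span_singleton_self a))

theorem exists_sq_ne_one [Fintype F] (h : 4 ≤ Fintype.card F) : ∃ s : F, s ≠ 0 ∧ s ^ 2 ≠ 1 := by
  by_contra h1
  push Not at h1
  have := H97.card_le_three_of_sq (F := F) fun t ht => by rw [← pow_two]; exact h1 t ht
  omega

theorem exists_sq_avoid [Fintype F] (h : 4 ≤ Fintype.card F) {a : F} (ha : a ≠ 0) (b : F) :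
    ∃ s : F, s ≠ 0 ∧ a + s ^ 2 * b ≠ 0 := by
  obtain ⟨s, hs, hs'⟩ := exists_sq_ne_one h
  by_cases h1 : a + b = 0
  · refine ⟨s, hs, fun h2 => hs' (mul_right_cancel₀ ha ?_)⟩
    linear_combination s ^ 2 * h1 - h2
  · exact ⟨1, one_ne_zero, by simpa using h1⟩

theorem eq_one_of_card_two [Fintype F] (h : Fintype.card F = 2) {a : F} (ha : a ≠ 0) : a = 1 := by
  have := FiniteField.pow_card_sub_one_eq_one a ha
  rwa [h, pow_one] at this

theorem two_eq_zero_of_card_two [Fintype F] (h : Fintype.card F = 2) : (2 : F) = 0 := by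
  by_contra h2
  have := eq_one_of_card_two h h2
  exact one_ne_zero (α := F) (by linear_combination this)

namespace NdOn

variable {W : Submodule F V}

theorem nondeg (h : NdOn Q W) : Nondeg (Q.restrict W) := fun v hv =>
  Subtype.ext (h v v.2 fun y hy => hv ⟨y, hy⟩)

theorem exists_B_ne (h : NdOn Q W) {x : V} (hx : x ∈ W) (h0 : x ≠ 0) :
    ∃ y ∈ W, polar Q x y ≠ 0 := by
  by_contra h1
  push Not at h1
  exact h0 (h x hx h1)

theorem exists_Q_ne (h : NdOn Q W) {x : V} (hx : x ∈ W) (h0 : x ≠ 0) : ∃ y ∈ W, Q y ≠ 0 := by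
  obtain ⟨y, hy, h1⟩ := h.exists_B_ne hx h0
  rcases exists_Q_ne_of_B_ne h1 with h2 | h2 | h2
  exacts [⟨_, hx, h2⟩, ⟨_, hy, h2⟩, ⟨_, W.add_mem hx hy, h2⟩]

theorem exists_hyp (h : NdOn Q W) {d : V} (hd : d ∈ W) (h0 : d ≠ 0) (hq : Q d = 0) :
    ∃ f ∈ W, IsHyp Q d f := by
  obtain ⟨y, hy, h1⟩ := h.exists_B_ne hd h0
  obtain ⟨a, b, -, h2⟩ := exists_hyp_of_B_ne hq h1
  exact ⟨_, W.add_mem (W.smul_mem _ hy) (W.smul_mem _ hd), h2⟩

theorem inf_orth (h : NdOn Q W) (h2 : (2 : F) ≠ 0) {u : V} (hu : u ∈ W) (hq : Q u ≠ 0) :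
    NdOn Q (W ⊓ orth Q u) := by
  rintro x ⟨hx, hxu⟩ h1
  refine h x hx fun y hy => ?_
  have := h1 (y - ((2 * Q u)⁻¹ * polar Q u y) • u) ⟨W.sub_mem hy (W.smul_mem _ hu), mem_orth.2 (by
    rw [polar_sub_right, B_smul_right, B_self]; field_simp; ring)⟩
  rwa [polar_sub_right, B_smul_right, B_symm (mem_orth.1 hxu), mul_zero, sub_zero] at this

theorem inf_hyp (h : NdOn Q W) {e f : V} (he : e ∈ W) (hf : f ∈ W) (hef : IsHyp Q e f) :
    NdOn Q (W ⊓ orth Q e ⊓ orth Q f) := by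
  rintro x ⟨⟨hx, hxe⟩, hxf⟩ h1
  refine h x hx fun y hy => ?_
  have h3 := mem_perp.1 (hef.pr_mem y)
  rw [← IsHyp.B_pr (mem_perp.2 ⟨mem_orth.1 hxe, mem_orth.1 hxf⟩) y]
  refine h1 _ ⟨⟨?_, mem_orth.2 h3.1⟩, mem_orth.2 h3.2⟩
  have := W.sub_mem hy (W.add_mem (W.smul_mem (polar Q f y) he) (W.smul_mem (polar Q e y) hf))
  nth_rewrite 1 [pr_decomp (Q := Q) e f y] at this
  rwa [add_sub_cancel_left] at this

theorem of_aniso (h2 : (2 : F) ≠ 0) (h : ∀ x ∈ W, Q x = 0 → x = 0) : NdOn Q W :=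
  fun x hx h1 => h x hx (by
    have := h1 x hx
    rw [B_self] at this
    exact (mul_eq_zero.1 this).resolve_left h2)

variable [FiniteDimensional F V]

theorem universal [Finite F] (h : NdOn Q W) (hk : 2 ≤ finrank F W) (c : F) :
    ∃ x ∈ W, Q x = c := by
  obtain ⟨x, hx⟩ := h.nondeg.universal hk c
  exact ⟨x, x.2, hx⟩

theorem exists_orth_B_eq (h : NdOn Q W) {d u : V} (hd : d ∈ W) (hu : u ∈ W) (hud : u ∉ F ∙ d)
    (c : F) : ∃ w ∈ W, polar Q d w = 0 ∧ polar Q u w = c := by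
  obtain ⟨w, h1, h2⟩ := h.nondeg.exists_orth_B_eq (u := ⟨d, hd⟩) (v := ⟨u, hu⟩)
    (fun c hc => hud (Submodule.mem_span_singleton.2 ⟨c, (congrArg Subtype.val hc).symm⟩)) c
  exact ⟨w, w.2, h1, h2⟩

theorem two_mul_le (h : NdOn Q W) {N : Submodule F V} (hN : N ≤ W)
    (h1 : ∀ x ∈ N, ∀ y ∈ N, polar Q x y = 0) : 2 * finrank F N ≤ finrank F W := by
  have := H97.two_mul_finrank_le_of_ts (P := H28.PQ.ofQuad (Q.restrict W))
    (nondeg_iff.1 h.nondeg).1 (W := N.comap W.subtype) fun x hx y hy => h1 x hx y hy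
  rwa [(Submodule.comapSubtypeEquivOfLe hN).finrank_eq] at this

theorem exists_Q_ne_of_large (h : NdOn Q W) {N : Submodule F V} (hN : N ≤ W)
    (h1 : finrank F W < 2 * finrank F N) : ∃ x ∈ N, Q x ≠ 0 := by
  by_contra h2
  push Not at h2
  have := h.two_mul_le hN fun x hx y hy => B_of_ts h2 hx hy
  omega

theorem exists_Q_ne' (h : NdOn Q W) (hk : 1 ≤ finrank F W) : ∃ x ∈ W, Q x ≠ 0 :=
  h.exists_Q_ne_of_large le_rfl (by omega)

theorem exists_hyp_pair [Finite F] (h : NdOn Q W) (hk : 3 ≤ finrank F W) :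
    ∃ e ∈ W, ∃ f ∈ W, IsHyp Q e f := by
  obtain ⟨e, he, h0, hq⟩ := exists_sing_in Q W hk
  obtain ⟨f, hf, h1⟩ := h.exists_hyp he h0 hq
  exact ⟨e, he, f, hf, h1⟩

theorem exists_orth_hyp (h : NdOn Q W) (hk : 3 ≤ finrank F W) {e f : V} (he : e ∈ W) (hf : f ∈ W)
    (hef : IsHyp Q e f) : ∃ z ∈ W, Q z ≠ 0 ∧ polar Q e z = 0 ∧ polar Q f z = 0 := by
  have d1 := finrank_inf_orth (Q := Q) W e
  have d2 := finrank_inf_orth (Q := Q) (W ⊓ orth Q e) f
  obtain ⟨z, ⟨⟨h1, h2⟩, h3⟩, h4⟩ := (h.inf_hyp he hf hef).exists_Q_ne' (by omega)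
  exact ⟨z, h1, h4, mem_orth.1 h2, mem_orth.1 h3⟩

/-- The non-singular vectors span. -/
theorem le_of_nonsing (h : NdOn Q W) (hk : 3 ≤ finrank F W ∨ ∃ c : F, c ≠ 0 ∧ c ≠ 1)
    {Y : Submodule F V} (hY : ∀ b ∈ W, Q b ≠ 0 → b ∈ Y) : W ≤ Y := by
  intro s hs
  by_contra hsY
  have hq : Q s = 0 := by_contra fun h1 => hsY (hY s hs h1)
  have key : ∀ x ∈ W, Q x ≠ 0 → ∀ c : F, c ≠ 0 → Q x + c * polar Q x s = 0 := by
    intro x hx h1 c hc
    by_contra h2
    have := Y.sub_mem (hY (x + c • s) (W.add_mem hx (W.smul_mem _ hs))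
      (by rwa [Q_add, Q_smul, hq, mul_zero, add_zero, B_smul_right])) (hY x hx h1)
    rw [add_sub_cancel_left] at this
    exact hsY ((Y.smul_mem_iff hc).1 this)
  rcases hk with hk | ⟨c, hc, hc'⟩
  · have d1 := finrank_inf_orth (Q := Q) W s
    obtain ⟨x, ⟨hx, h1⟩, h2⟩ := h.exists_Q_ne_of_large (N := W ⊓ orth Q s) inf_le_left (by omega)
    have := key x hx h2 1 one_ne_zero
    rw [B_symm (mem_orth.1 h1)] at this
    exact h2 (by simpa using this)
  · obtain ⟨x, hx, h1⟩ := h.exists_Q_ne hs (by rintro rfl; exact hsY Y.zero_mem)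
    have h3 := key x hx h1 1 one_ne_zero
    have h4 := key x hx h1 c hc
    exact mul_ne_zero (sub_ne_zero.2 hc') h1 (by linear_combination c * h3 - h4)

theorem exists_nonsing_B_ne (h : NdOn Q W) (hk : 3 ≤ finrank F W ∨ ∃ c : F, c ≠ 0 ∧ c ≠ 1)
    {x : V} (hx : x ∈ W) (h0 : x ≠ 0) : ∃ b ∈ W, Q b ≠ 0 ∧ polar Q x b ≠ 0 := by
  by_contra h1
  push Not at h1
  exact h0 (h x hx fun y hy =>
    mem_orth.1 (h.le_of_nonsing hk (Y := orth Q x) (fun b hb h2 => mem_orth.2 (h1 b hb h2)) hy))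

theorem exists_link [Fintype F] (h : NdOn Q W) (hk : 4 ≤ finrank F W ∨ (3 ≤ finrank F W ∧ (2 : F) ≠ 0))
    (hx : Fintype.card F = 2 → finrank F W = 4 → ∀ U ≤ W, (∀ u ∈ U, Q u = 0) → finrank F U ≠ 2)
    {x x' : V} (hxW : x ∈ W) (hx'W : x' ∈ W) (hq : Q x ≠ 0) (hq' : Q x' ≠ 0) (hne : x ≠ x')
    (hxx : polar Q x x' = 0) : ∃ z ∈ W, Q z ≠ 0 ∧ polar Q x z ≠ 0 ∧ polar Q x' z ≠ 0 := by
  have d1 := finrank_inf_orth (Q := Q) W x
  have d2 := finrank_inf_orth (Q := Q) (W ⊓ orth Q x) x'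
  by_cases h2 : (2 : F) = 0
  · obtain ⟨z, hz, h3, h4⟩ := H97.exists_notMem_two (W := W) (Y := orth Q x) (Z := orth Q x')
      (fun h1 => ne_zero_of_Q_ne hq (h x hxW fun y hy => mem_orth.1 (h1 hy)))
      (fun h1 => ne_zero_of_Q_ne hq' (h x' hx'W fun y hy => mem_orth.1 (h1 hy)))
    rw [mem_orth] at h3 h4
    by_contra hcon
    push Not at hcon
    have key : ∀ y ∈ W ⊓ orth Q x ⊓ orth Q x', Q (z + y) = 0 := by
      rintro y ⟨⟨hy, h5⟩, h6⟩
      by_contra h7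
      refine h4 ?_
      have := hcon _ (W.add_mem hz hy) h7 (by rwa [polar_add_right, mem_orth.1 h5, add_zero])
      rwa [polar_add_right, mem_orth.1 h6, add_zero] at this
    have hz0 : Q z = 0 := by simpa using key 0 (Submodule.zero_mem _)
    have hxN : x ∈ W ⊓ orth Q x ⊓ orth Q x' :=
      ⟨⟨hxW, mem_orth.2 (by rw [B_self, h2, zero_mul])⟩, mem_orth.2 (B_symm hxx)⟩
    by_cases hF : Fintype.card F = 2
    · have h5 := h.two_mul_le (N := W ⊓ orth Q x ⊓ orth Q x') (inf_le_left.trans inf_le_left)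
        fun a ha b hb => by
          have e1 := key a ha
          have e2 := key b hb
          have e3 := key _ (Submodule.add_mem _ ha hb)
          rw [Q_add] at e1 e2 e3
          rw [Q_add, polar_add_right] at e3
          linear_combination e3 - e1 - e2 + hz0
      have h6 : finrank F W = 4 := by
        rcases hk with hk | hk
        · omega
        · exact absurd h2 hk.2
      have e1 := eq_one_of_card_two hF hq
      have e2 := eq_one_of_card_two hF hq'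
      have e3 := eq_one_of_card_two hF h3
      have e4 := eq_one_of_card_two hF h4
      have e5 : Q (x + x') = 0 := by rw [Q_add, e1, e2, hxx]; linear_combination h2
      have e6 : polar Q (x + x') z = 0 := by rw [polar_add_left, e3, e4]; linear_combination h2
      refine hx hF h6 (Submodule.span F (Set.range ![x + x', z])) (Submodule.span_le.2 ?_) ?_ ?_
      · rintro _ ⟨i, rfl⟩
        fin_cases i
        exacts [W.add_mem hxW hx'W, hz]
      · intro u hu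
        rw [Matrix.range_cons_cons_empty] at hu
        obtain ⟨s, t, rfl⟩ := Submodule.mem_span_pair.1 hu
        rw [Q_add, Q_smul, Q_smul, B_smul_left, B_smul_right, e5, hz0, e6]
        ring
      · rw [finrank_span_eq_card, Fintype.card_fin]
        refine LinearIndependent.pair_iff.2 fun s t hst => ?_
        have e7 := congrArg (polar Q x) hst
        rw [polar_add_right, B_smul_right, B_smul_right, polar_add_right, hxx, B_self, h2, e3,
          polar_zero_right] at e7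
        have ht : t = 0 := by linear_combination e7
        rw [ht, zero_smul, add_zero, smul_eq_zero] at hst
        refine ⟨hst.resolve_right fun e8 => hne ?_, ht⟩
        have : x = -x' := eq_neg_of_add_eq_zero_left e8
        rw [this, neg_eq_iff_add_eq_zero, ← two_smul F x', h2, zero_smul]
    · obtain ⟨c, hc, hc'⟩ := exists_ne_zero_one hF
      have e1 := key _ hxN
      have e2 := key _ (Submodule.smul_mem _ c hxN)
      rw [Q_add] at e1 e2
      rw [Q_smul, B_smul_right] at e2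
      exact mul_ne_zero (mul_ne_zero hc (sub_ne_zero.2 hc')) hq
        (by linear_combination e2 - c * e1 + (c - 1) * hz0)
  · have e1 : polar Q x (x + x') ≠ 0 := by
      rw [polar_add_right, hxx, add_zero, B_self]; exact mul_ne_zero h2 hq
    have e2 : polar Q x' (x + x') ≠ 0 := by
      rw [polar_add_right, B_symm hxx, zero_add, B_self]; exact mul_ne_zero h2 hq'
    by_cases h3 : Q (x + x') = 0
    · obtain ⟨y, ⟨⟨hy, h4⟩, h5⟩, h6⟩ := ((h.inf_orth h2 hxW hq).inf_orth h2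
        ⟨hx'W, mem_orth.2 hxx⟩ hq').exists_Q_ne' (by omega)
      rw [SetLike.mem_coe, mem_orth] at h4 h5
      refine ⟨x + x' + y, W.add_mem (W.add_mem hxW hx'W) hy, ?_, ?_, ?_⟩
      · rwa [Q_add, h3, polar_add_left, h4, h5, add_zero, add_zero, zero_add]
      · rwa [polar_add_right, h4, add_zero]
      · rwa [polar_add_right, h5, add_zero]
    · exact ⟨_, W.add_mem hxW hx'W, h3, e1, e2⟩

/-- The non-singular vectors are connected under non-orthogonality. -/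
theorem le_of_conn [Fintype F] (h : NdOn Q W)
    (hk : 4 ≤ finrank F W ∨ (3 ≤ finrank F W ∧ (2 : F) ≠ 0))
    (hx : Fintype.card F = 2 → finrank F W = 4 → ∀ U ≤ W, (∀ u ∈ U, Q u = 0) → finrank F U ≠ 2)
    {Y : Submodule F V} (hY : ∀ b ∈ W, Q b ≠ 0 → b ∈ Y ∨ ∀ y ∈ W, y ∈ Y → polar Q y b = 0)
    {x : V} (hxW : x ∈ W) (hxY : x ∈ Y) (h0 : x ≠ 0) : W ≤ Y := by
  have h3 : 3 ≤ finrank F W := by omega
  obtain ⟨b, hb, hq, h1⟩ := h.exists_nonsing_B_ne (Or.inl h3) hxW h0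
  have hbY : b ∈ Y := (hY b hb hq).resolve_right fun h2 => h1 (h2 x hxW hxY)
  refine h.le_of_nonsing (Or.inl h3) fun b' hb' hq' => ?_
  by_contra h2
  have h4 := (hY b' hb' hq').resolve_left h2
  obtain ⟨z, hz, h5, h6, h7⟩ := h.exists_link hk hx hb hb' hq hq' (by rintro rfl; exact h2 hbY)
    (h4 b hb hbY)
  exact h7 (B_symm (h4 z hz ((hY z hz h5).resolve_right fun h8 => h6 (h8 b hb hbY))))

theorem exists_Q_B [Finite F] (h : NdOn Q W) (hk : 3 ≤ finrank F W) (h2 : (2 : F) ≠ 0) {v : V}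
    (hv : v ∈ W) (h0 : v ≠ 0) (γ : F) {μ : F} (hμ : Q v ≠ 0 ∨ μ ≠ 0) :
    ∃ x ∈ W, Q x = γ ∧ polar Q v x = μ := by
  by_cases hq : Q v = 0
  · have hμ' := hμ.resolve_left (not_not.2 hq)
    obtain ⟨f, hf, h1⟩ := h.exists_hyp hv h0 hq
    refine ⟨(γ * μ⁻¹) • v + μ • f, W.add_mem (W.smul_mem _ hv) (W.smul_mem _ hf), ?_, ?_⟩
    · rw [h1.Q_comb]; field_simp
    · rw [polar_add_right, B_smul_right, B_smul_right, h1.hee, h1.hef]; ring
  · have d1 := finrank_inf_orth (Q := Q) W v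
    obtain ⟨y, ⟨hy, h1⟩, h3⟩ := (h.inf_orth h2 hv hq).universal (by omega)
      (γ - (μ * (2 * Q v)⁻¹) ^ 2 * Q v)
    rw [SetLike.mem_coe, mem_orth] at h1
    refine ⟨(μ * (2 * Q v)⁻¹) • v + y, W.add_mem (W.smul_mem _ hv) hy, ?_, ?_⟩
    · rw [Q_add, Q_smul, B_smul_left, h1, h3]; ring
    · rw [polar_add_right, B_smul_right, h1, B_self]; field_simp; ring

theorem exists_sing_orth (h2 : (2 : F) ≠ 0) {e z x : V} (he : e ∈ W) (hz : z ∈ W) (hx : x ∈ W)
    (he0 : e ≠ 0) (hq : Q e = 0) (hez : polar Q e z = 0) (hz0 : Q z ≠ 0) (hxz : Q x = Q z) :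
    ∃ d ∈ W, d ≠ 0 ∧ Q d = 0 ∧ polar Q d x = 0 := by
  have key : ∀ x ∈ W, Q x = Q z → Q (z - x) ≠ 0 → ∃ d ∈ W, d ≠ 0 ∧ Q d = 0 ∧ polar Q d x = 0 :=
    fun x hx hxz h1 => ⟨(refl Q (z - x)).1 e, movIn_apply (refl_mem_movIn (W.sub_mem hz hx)) he,
      O.apply_ne_zero _ he0, by rw [O.map_Q, hq], by
        nth_rewrite 2 [← refl_sub_apply hxz.symm h1]
        rw [O.map_B, hez]⟩
  by_cases h1 : Q (z - x) = 0
  · obtain ⟨d, h3, h4, h5, h6⟩ := key (-x) (W.neg_mem hx) (by rw [QuadraticMap.map_neg, hxz])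
      (fun h3 => by
        rw [Q_sub] at h1 h3
        rw [QuadraticMap.map_neg, polar_neg_right] at h3
        exact mul_ne_zero (mul_ne_zero h2 h2) hz0 (by linear_combination h1 + h3 - 2 * hxz))
    exact ⟨d, h3, h4, h5, by simpa using h6⟩
  · exact key x hx hxz h1

/-- Two non-parallel vectors of the same type in a hyperplane. -/
theorem exists_pair [Fintype F] (h : NdOn Q W)
    (hk : 4 ≤ finrank F W ∨ (3 ≤ finrank F W ∧ (2 : F) ≠ 0 ∧ 4 ≤ Fintype.card F)) (v : V) :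
    ∃ a ∈ W, ∃ b ∈ W, polar Q v a = 0 ∧ polar Q v b = 0 ∧ Q a ≠ 0 ∧ b ∉ F ∙ a ∧
      ∃ t : F, t ≠ 0 ∧ Q b = t ^ 2 * Q a := by
  have d1 := finrank_inf_orth (Q := Q) W v
  obtain ⟨a, ⟨ha, hva⟩, hq⟩ := h.exists_Q_ne_of_large (N := W ⊓ orth Q v) inf_le_left (by omega)
  have d2 := finrank_inf_orth (Q := Q) (W ⊓ orth Q v) a
  refine ⟨a, ha, ?_⟩
  by_cases h1 : ∃ z ∈ W ⊓ orth Q v ⊓ orth Q a, z ≠ 0 ∧ Q z = 0
  · obtain ⟨z, ⟨⟨hz, h3⟩, h4⟩, h5, h6⟩ := h1
    refine ⟨a + z, W.add_mem ha hz, mem_orth.1 hva, mem_orth.1 (Submodule.add_mem _ hva h3), hq,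
      add_notMem_span (notMem_span_of_sing hq h6 h5), 1, one_ne_zero, ?_⟩
    rw [Q_add_orth (mem_orth.1 h4), h6]; ring
  push Not at h1
  by_cases h2 : (2 : F) = 0
  · have hk' : 4 ≤ finrank F W := hk.resolve_right fun h => h.2.1 h2
    obtain ⟨z, hz, h3⟩ := exists_notMem_of_lt (W := W ⊓ orth Q v ⊓ orth Q a) (U := F ∙ a)
      (by have := H97.finrank_span_singleton_le (F := F) a; omega)
    have h4 := h1 z hz (by rintro rfl; exact h3 (Submodule.zero_mem _))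
    obtain ⟨t, ht⟩ := exists_sq_eq_of_two_eq_zero h2 (Q z * (Q a)⁻¹)
    refine ⟨z, hz.1.1, mem_orth.1 hva, mem_orth.1 hz.1.2, hq, h3, t, ?_, by rw [ht]; field_simp⟩
    rintro rfl
    exact mul_ne_zero h4 (inv_ne_zero hq) (by rw [← ht]; ring)
  rcases hk with hk | ⟨hk, -, hF⟩
  · obtain ⟨z, hz, h3⟩ := (of_aniso h2 fun x hx h3 => by_contra fun h4 => h1 x hx h4 h3).universal
      (by omega) (Q a)
    exact ⟨z, hz.1.1, mem_orth.1 hva, mem_orth.1 hz.1.2, hq,
      notMem_span_of_orth h2 hq (ne_zero_of_Q_ne (h3 ▸ hq)) (mem_orth.1 hz.2), 1, one_ne_zero,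
      by rw [h3]; ring⟩
  · obtain ⟨z, hz, h3⟩ := H97.exists_ne_zero_mem (X := W ⊓ orth Q v ⊓ orth Q a) (by omega)
    obtain ⟨t, ht, h4⟩ := exists_sq_avoid hF hq (Q z)
    refine ⟨(Q a - t ^ 2 * Q z) • a + (2 * t * Q a) • z,
      W.add_mem (W.smul_mem _ ha) (W.smul_mem _ hz.1.1), mem_orth.1 hva,
      mem_orth.1 (Submodule.add_mem _ (Submodule.smul_mem _ _ hva) (Submodule.smul_mem _ _ hz.1.2)),
      hq, fun h5 => notMem_span_of_orth h2 hq h3 (mem_orth.1 hz.2) ?_, _, h4, ?_⟩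
    · have := Submodule.sub_mem _ h5
        (Submodule.smul_mem _ (Q a - t ^ 2 * Q z) (Submodule.mem_span_singleton_self a))
      rw [add_sub_cancel_left] at this
      exact (Submodule.smul_mem_iff _ (mul_ne_zero (mul_ne_zero h2 ht) hq)).1 this
    · rw [Q_add, Q_smul, Q_smul, B_smul_left, B_smul_right, mem_orth.1 hz.2]; ring

end NdOn

end H97o
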