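import Mathlib
import Cfsg.Agent.Lib.ClassMax.C8GL
import Cfsg.Agent.Lib.ClassMax.ONd

/-! The class C8 in `SL_n(q)` in small dimension (`n ≥ 5` symplectic, `n ≥ 6` unitary, orthogonal). -/

set_option autoImplicit false
set_option linter.unusedSectionVars false

namespace H97

open Module Cfsg H28

section

variable {F V : Type*} [Field F] [AddCommGroup V] [Module F V] {σ : F →+* F} {P : PQ F V σ}
  [FiniteDimensional F V] {M : Subgroup (V ≃ₗ[F] V)}

theorem hasT_eu_step (hP : P.B.SeparatingLeft) (hE : EG P ≤ M) {u w d : V} (hwu : P.B w u = 0)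
    (hT : HasT M u (P.B w)) (hd : P.q d ∈ P.Λ) (hdu : P.B d u = 0) (hdw : P.B d w = 0)
    (hw' : w ∉ Submodule.span F {u, d}) (a : F) : HasT M u (P.B (a • d)) := by
  obtain ⟨z, hz, hzw⟩ := exists_B_eq hP hw' a
  have hzu := hz u (Submodule.subset_span (by simp))
  have hzd := hz d (Submodule.subset_span (by simp))
  obtain ⟨g, hg, e⟩ := has_eu_EG hd (P.eq_zero_symm hzd) (c := P.q z) (by simp)
  have h1 := hT.conj' (ψ := P.B (g w)) (hE hg) fun x => (EG_le_isom hg).1 w x
  rw [e u, eu_fix _ hdu hzu, e w, eu_apply, hdw, hzw] at h1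
  have h2 := h1.sub_right hT (by simp [hwu, hdu]) hwu
  simpa using h2

theorem notMem_span_pair_swap {u w d : V} (hw : w ∉ F ∙ u) (hd : d ∉ Submodule.span F {u, w}) :
    w ∉ Submodule.span F {u, d} := by
  intro h
  obtain ⟨a, b, rfl⟩ := Submodule.mem_span_pair.1 h
  have hb : b ≠ 0 := by
    rintro rfl
    exact hw (by simpa using Submodule.smul_mem _ a (Submodule.mem_span_singleton_self u))
  refine hd (Submodule.mem_span_pair.2 ⟨-(b⁻¹ * a), b⁻¹, ?_⟩)
  match_scalars <;> field_simp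
  ring

theorem cen_of_hasT_perp (hP : P.B.SeparatingLeft) {u : V}
    (h : ∀ x, P.B x u = 0 → HasT M u (P.B x)) : u ∈ cen M := by
  intro φ hφ
  obtain ⟨y, hy⟩ := exists_repr_dual P.σσ P.B hP φ
  obtain rfl : φ = P.B y := LinearMap.ext fun x => (hy x).symm
  exact h y hφ

theorem IsoK.SLV_le_of_transvection' {k : ℕ} (h : IsoK P k) (hP : P.B.SeparatingLeft)
    (hn : k + 4 ≤ finrank F V) (hE : EG P ≤ M) {u w : V} (hu0 : u ≠ 0) (hw : w ∉ F ∙ u)
    (hwu : P.B w u = 0) (hT : HasT M u (P.B w)) : SLV F V ≤ M := by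
  have hadd : ∀ x y, P.B x u = 0 → HasT M u (P.B x) → HasT M u (P.B y) → HasT M u (P.B (x + y)) :=
    fun x y hx h1 h2 => by rw [map_add]; exact h1.add_right h2 hx
  have s2 : ∀ d₀ d, P.B d₀ u = 0 → HasT M u (P.B d₀) → P.q d ∈ P.Λ → P.B d u = 0 →
      P.B d d₀ ≠ 0 → ∀ a : F, HasT M u (P.B (a • d)) := by
    intro d₀ d h0u h0 hd hdu hdd
    obtain ⟨d₁, h1, h1u, h1q⟩ := h.exists_notMem (perp P (Submodule.span F {u, d₀, d})) (F ∙ u) (by
      have := finrank_le_perp (P := P) (Submodule.span F {u, d₀, d})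
      have := finrank_span_triple_le (F := F) u d₀ d
      have := finrank_span_singleton_le (F := F) u
      omega)
    rw [mem_perp_span] at h1
    have e1 := P.eq_zero_symm (h1 u (by simp))
    have e2 := P.eq_zero_symm (h1 d₀ (by simp))
    have e3 := h1 d (by simp)
    have h2 := hasT_eu_step hP hE h0u h0 h1q e1 e2 (fun hh => by
      obtain ⟨a, b, rfl⟩ := Submodule.mem_span_pair.1 hh
      exact hdd (by simp [hdu, e3])) 1
    rw [one_smul] at h2
    refine hasT_eu_step hP hE e1 h2 hd hdu e3 (notMem_span_pair h1u h0u (h1 d₀ (by simp)) ?_)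
    exact B_ne_zero_symm hdd
  obtain ⟨d₀, h0, h0w, h0q⟩ := h.exists_notMem (perp P (Submodule.span F {u, w}))
    (Submodule.span F {u, w}) (by
      have := finrank_le_perp (P := P) (Submodule.span F {u, w})
      have := finrank_span_pair_le (F := F) u w
      omega)
  rw [mem_perp_span] at h0
  have h0u := P.eq_zero_symm (h0 u (by simp))
  have h0u' : d₀ ∉ F ∙ u := fun hh => h0w (Submodule.span_mono (by simp) hh)
  have hT0 := hasT_eu_step hP hE hwu hT h0q h0u (P.eq_zero_symm (h0 w (by simp)))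
    (notMem_span_pair_swap hw h0w) 1
  rw [one_smul] at hT0
  have s3 : ∀ d, P.q d ∈ P.Λ → P.B d u = 0 → ∀ a : F, HasT M u (P.B (a • d)) := by
    intro d hd hdu
    by_cases h1 : P.B d d₀ ≠ 0
    · exact s2 d₀ d h0u hT0 hd hdu h1
    push Not at h1
    by_cases h2 : d₀ ∉ Submodule.span F {u, d}
    · exact hasT_eu_step hP hE h0u hT0 hd hdu h1 h2
    push Not at h2
    obtain ⟨d₂, h2q, h2u, h20⟩ := h.exists_sing_perp hP (by omega) h0u'
    have h3 := s2 d₀ d₂ h0u hT0 h2q h2u h20 1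
    rw [one_smul] at h3
    refine s2 d₂ d h2u h3 hd hdu (B_ne_zero_symm fun h4 => h20 ?_)
    obtain ⟨a, b, rfl⟩ := Submodule.mem_span_pair.1 h2
    simp [h2u, h4]
  refine SLV_le_of_cen (cen_eq_top h hP (by omega) hE (cen_of_hasT_perp hP fun x hxu => ?_) hu0)
  obtain ⟨e, f, he, hf, hef, ⟨hue, huf⟩, hxe, hxf⟩ := h.pair2 hP hn u x
  have heu := P.eq_zero_symm hue
  have hfu := P.eq_zero_symm huf
  have h1 := s3 (x + (e + (0 - P.q x) • f)) (by simpa using q_add_pair he hf hef hxe hxf 0)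
    (by simp [hxu, heu, hfu]) 1
  have h4 := hadd _ _ (by simp [hxu, heu, hfu]) (hadd _ _ (by simp [hxu, heu, hfu]) h1
    (s3 e he heu (-1))) (s3 f hf hfu (P.q x))
  convert h4 using 2
  module

theorem IsoK.isMaximalIn_simG' {k : ℕ} (h : IsoK P k) (hP : P.B.SeparatingLeft)
    (hn : k + 4 ≤ finrank F V) (hΛ : ∃ l ∈ P.Λ, l ≠ 0) :
    Geo.IsMaximalIn (SLV F V) (simG (fun x y => P.B x y) ⊓ SLV F V) := by
  refine isMaximalIn_of inf_le_right
    (fun hle => h.not_SLV_le_simG hP (by omega) (hle.trans inf_le_left)) fun M h1 h2 ⟨g, hg, hg'⟩ => ?_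
  have hE : EG P ≤ M := fun s hs =>
    h1 ⟨mem_simG.2 ⟨1, one_ne_zero, fun x y => by rw [(EG_le_isom hs).1, one_mul]⟩, EG_le_SLV hs⟩
  by_contra hM
  obtain ⟨l, hl, hl0⟩ := hΛ
  obtain ⟨a, ha⟩ := h.prop_of_sing hP (by omega) (Bg P g) fun u hu x hux => by
    by_cases hu0 : u = 0
    · simp [hu0]
    have h3 : HasT M u ((-(P.ε * l)) • P.B u) :=
      ((has_eu_EG hu (w := 0) (c := l) (by simp) (P.Λ.sub_mem hl P.q_zero)).mono hE).congr
        fun x => by simp [eu_apply]
    have h4 := h3.conj hg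
    obtain ⟨w, hw⟩ := exists_repr_dual P.σσ P.B hP (((-(P.ε * l)) • P.B u) ∘ₗ (g⁻¹ : V ≃ₗ[F] V))
    rw [← LinearMap.ext hw] at h4
    have hw' : ∀ y, P.B w (g y) = -(P.ε * l) * P.B u y := fun y => by
      rw [hw]; simp
    have h5 : w ∈ F ∙ g u := by
      by_contra h5
      exact hM (h.SLV_le_of_transvection' hP hn hE (by simpa using hu0) h5
        (by rw [hw', P.self_eq_zero hu, mul_zero]) h4)
    obtain ⟨b, rfl⟩ := Submodule.mem_span_singleton.1 h5
    have h6 := hw' x
    rw [hux, mul_zero, B_smul_left, mul_eq_zero] at h6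
    refine h6.resolve_left fun hb => hu0 (hP u fun y => ?_)
    have h7 := hw' y
    rw [B_smul_left, hb, zero_mul] at h7
    simpa [hl0, P.ε_ne_zero] using h7
  exact hg' ⟨mem_simG_of_prop hP (by omega) ha, h2 hg⟩

end

section Quad

open QuadraticMap H97o

variable {F V : Type*} [Field F] [AddCommGroup V] [Module F V] [FiniteDimensional F V]
  {M : Subgroup (V ≃ₗ[F] V)} {Q : QuadraticForm F V}

theorem ndOn_top (hQ : (PQ.ofQuad Q).B.SeparatingLeft) : NdOn Q ⊤ :=
  fun x _ h => hQ x fun y => h y trivial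

theorem finrank_inf_hyp (W : Submodule F V) (e f : V) :
    finrank F W ≤ finrank F ↥(W ⊓ orth Q e ⊓ orth Q f) + 2 := by
  have h1 := finrank_inf_orth (Q := Q) W e
  have h2 := finrank_inf_orth (Q := Q) (W ⊓ orth Q e) f
  omega

/-- a linear form vanishing on the singular vectors of `W` vanishes on `W` -/
theorem dual_eq_zero_of_sing {W : Submodule F V} {e f : V} (he : e ∈ W) (hf : f ∈ W)
    (hef : H12.IsHyp Q e f) {α : Dual F V} (h : ∀ x ∈ W, Q x = 0 → α x = 0) :
    ∀ x ∈ W, α x = 0 := by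
  intro x hx
  have hfe : polar Q f e = 1 := by rw [polar_comm]; exact hef.hef
  set z := x - polar Q f x • e - polar Q e x • f with hz
  have hzW : z ∈ W := W.sub_mem (W.sub_mem hx (W.smul_mem _ he)) (W.smul_mem _ hf)
  have hze : polar Q z e = 0 := by
    simp only [hz, polar_sub_left, polar_smul_left, B_sing hef.he, hfe, smul_eq_mul, polar_comm Q x e]
    ring
  have hzf : polar Q z f = 0 := by
    simp only [hz, polar_sub_left, polar_smul_left, B_sing hef.hf, hef.hef, smul_eq_mul,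
      polar_comm Q x f]
    ring
  have h1 := h (z + (e + (-Q z) • f)) (W.add_mem hzW (W.add_mem he (W.smul_mem _ hf))) (by
    simp only [H12.Q_add, H12.Q_smul, polar_add_right, polar_smul_right, hze, hzf, hef.he, hef.hf,
      hef.hef, smul_eq_mul]
    ring)
  have h2 := h e he hef.he
  have h3 := h f hf hef.hf
  simp only [hz, map_add, map_sub, map_smul, h2, h3, smul_eq_mul] at h1
  linear_combination h1

theorem prop_of_sing_quad [Finite F] (h2 : (2 : F) ≠ 0) (hQ : (PQ.ofQuad Q).B.SeparatingLeft)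
    (hn : 5 ≤ finrank F V) (Q' : QuadraticForm F V) (h : ∀ u, Q u = 0 → Q' u = 0) :
    ∃ c : F, ∀ x, Q' x = c * Q x := by
  obtain ⟨e, -, f, -, hef⟩ := (ndOn_top hQ).exists_hyp_pair (by simp; omega)
  have hW := (ndOn_top hQ).inf_hyp trivial trivial hef
  have hd := finrank_inf_hyp (Q := Q) ⊤ e f
  rw [finrank_top] at hd
  set W := ⊤ ⊓ orth Q e ⊓ orth Q f with hWd
  obtain ⟨e', he', f', hf', hef'⟩ := hW.exists_hyp_pair (by omega)
  have hfe : polar Q f e = 1 := by rw [polar_comm]; exact hef.hef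
  have h1 : ∀ (a : V), Q a = 0 → (∀ x ∈ W, polar Q x a = 0) → ∀ x ∈ W, polar Q' a x = 0 := by
    intro a ha ha'
    refine dual_eq_zero_of_sing (α := polarBilin Q' a) he' hf' hef' fun x hx hq => ?_
    have := h (a + x) (by rw [H12.Q_add, ha, hq, polar_comm, ha' x hx]; ring)
    rw [H12.Q_add, h a ha, h x hq] at this
    simpa using this
  have h3 := h1 e hef.he fun x hx => B_symm hx.1.2
  have h4 := h1 f hef.hf fun x hx => B_symm hx.2
  refine ⟨polar Q' e f, fun x => ?_⟩
  set z := x - polar Q f x • e - polar Q e x • f with hz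
  have hze : polar Q e z = 0 := by
    simp only [hz, polar_sub_right, polar_smul_right, B_sing hef.he, hef.hef, smul_eq_mul]
    ring
  have hzf : polar Q f z = 0 := by
    simp only [hz, polar_sub_right, polar_smul_right, B_sing hef.hf, hfe, smul_eq_mul]
    ring
  have hzW : z ∈ W := ⟨⟨trivial, hze⟩, hzf⟩
  have h5 := h (z + (e + (-Q z) • f)) (by
    simp only [H12.Q_add, H12.Q_smul, polar_add_right, polar_smul_right, B_symm hze, B_symm hzf,
      hef.he, hef.hf, hef.hef, smul_eq_mul]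
    ring)
  have h6 : x = z + (polar Q f x • e + polar Q e x • f) := by rw [hz]; module
  have h7 := B_symm (h3 z hzW)
  have h8 := B_symm (h4 z hzW)
  generalize polar Q f x = a at h6
  generalize polar Q e x = b at h6
  rw [h6]
  simp only [H12.Q_add, H12.Q_smul, polar_add_right, polar_smul_right, polar_smul_left, B_symm hze,
    B_symm hzf, hef.he, hef.hf, hef.hef, smul_eq_mul, h7, h8, h e hef.he, h f hef.hf] at h5 ⊢
  linear_combination h5

theorem SLV_le_of_transvection_quad [Fintype F] (h2 : (2 : F) ≠ 0)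
    (hQ : (PQ.ofQuad Q).B.SeparatingLeft) (hn : 5 ≤ finrank F V)
    (hI : (PQ.ofQuad Q).Isom ⊓ SLV F V ≤ M) {u w : V} (hu0 : u ≠ 0) (hu : Q u = 0)
    (hw : w ∉ F ∙ u) (hwu : polar Q w u = 0) (hT : HasT M u ((PQ.ofQuad Q).B w)) :
    SLV F V ≤ M := by
  set P := PQ.ofQuad Q with hPd
  have hE : EG P ≤ M := (le_inf EG_le_isom EG_le_SLV).trans hI
  have hR : ∀ x y, P.B x u = 0 → HasT M u (P.B x) → Q y ≠ 0 → P.B y u = 0 →
      HasT M u (P.B (((Q y)⁻¹ * P.B y x) • y)) := by
    intro x y hx hxT hy hyu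
    obtain ⟨y', hy', hy'0⟩ := exists_nonsing_of_large hQ (X := perp P (Submodule.span F {u, x})) (by
      have := finrank_le_perp (P := P) (Submodule.span F {u, x})
      have := finrank_span_pair_le (F := F) u x
      omega)
    rw [mem_perp_span] at hy'
    obtain ⟨s, hs, es⟩ := has_refl_isom hQ hy
    obtain ⟨t, ht, et⟩ := has_refl_isom hQ hy'0
    have hst : s * t ∈ P.Isom := P.Isom.mul_mem hs ht
    have h1 := hxT.conj' (ψ := P.B ((s * t) x)) (hI ⟨hst,
      SLV_mul_of_det (det_refl hy es) (det_refl hy'0 et)⟩) fun z => hst.1 x z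
    have e1 := P.eq_zero_symm (hy' u (by simp))
    have e2 := P.eq_zero_symm (hy' x (by simp))
    rw [le_mul_apply, le_mul_apply, et, et, es, es] at h1
    simp only [PQ.qrefl_apply, ← hPd, e1, e2, hyu, mul_zero, zero_smul, add_zero] at h1
    have h3 := hxT.sub_right h1 hx (by simp [hx, hyu])
    convert h3 using 1
    simp
  let Y : Submodule F V :=
    { carrier := {x | P.B x u = 0 ∧ ∀ c : F, HasT M u (P.B (c • x))}
      add_mem' := fun {a b} ha hb => ⟨by simp [ha.1, hb.1], fun c => by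
        rw [smul_add, map_add]
        exact (ha.2 c).add_right (hb.2 c) (by simp [ha.1])⟩
      zero_mem' := ⟨by simp, fun c => by simpa using hasT_zero_right u⟩
      smul_mem' := fun a x hx => ⟨by simp [hx.1], fun c => by rw [smul_smul]; exact hx.2 _⟩ }
  have huu : P.B u u = 0 := P.self_eq_zero hu
  have huY : u ∈ Y := ⟨huu, hasT_eu_step hQ hE hwu hT hu huu (P.eq_zero_symm hwu) (by simpa using hw)⟩
  obtain ⟨f, -, huf⟩ := (ndOn_top hQ).exists_hyp trivial hu0 hu
  have hW := (ndOn_top hQ).inf_hyp trivial trivial huf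
  have hd := finrank_inf_hyp (Q := Q) ⊤ u f
  rw [finrank_top] at hd
  set W := ⊤ ⊓ orth Q u ⊓ orth Q f with hWd
  have hfu : polar Q f u = 1 := by rw [polar_comm]; exact huf.hef
  have hdec : ∀ x, polar Q x u = 0 → x - polar Q f x • u ∈ W := fun x hx =>
    ⟨⟨trivial, by simp [mem_orth, B_symm hx, B_sing hu]⟩, by simp [mem_orth, hfu]⟩
  have hWu : ∀ y ∈ W, P.B y u = 0 := fun y hy => B_symm hy.1.2
  obtain ⟨y, hy, hy0, hyw⟩ := hW.exists_nonsing_B_ne (Or.inl (by omega)) (hdec w hwu) (fun h0 =>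
    hw (by rw [sub_eq_zero.1 h0]; exact Submodule.smul_mem _ _ (Submodule.mem_span_singleton_self u)))
  have hyw' : P.B y w ≠ 0 := by
    refine B_symm_ne fun h0 => hyw ?_
    rw [polar_sub_left, polar_smul_left, h0, mem_orth.1 hy.1.2]
    simp
  have hyne : y ≠ 0 := by rintro rfl; simp at hy0
  have hyY : y ∈ Y := by
    refine ⟨hWu y hy, fun c => ?_⟩
    by_cases hc : c = 0
    · simpa [hc] using hasT_zero_right u
    obtain ⟨y', hy', hq, hb⟩ := hW.exists_Q_B (by omega) h2 hy hyne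
      ((Q y)⁻¹ * P.B y w * (Q y)⁻¹ * c⁻¹) (μ := 1) (Or.inl hy0)
    have hy'0 : Q y' ≠ 0 := by rw [hq]; simp [hy0, hyw', hc]
    have h1 := hR _ _ hwu hT hy0 (hWu y hy)
    have h3 := hR _ _ (by simp [hWu y hy]) h1 hy'0 (hWu y' hy')
    have h4 := hR _ _ (by simp [hWu y' hy']) h3 hy0 (hWu y hy)
    have hb1 : P.B y y' = 1 := hb
    have hb2 : P.B y' y = 1 := by rw [ofQuad_B, polar_comm]; exact hb
    convert h4 using 3
    simp only [map_smul, smul_eq_mul, hb1, hb2, hq]
    field_simp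
  have hWY : W ≤ Y := hW.le_of_conn (Or.inr ⟨by omega, h2⟩)
    (fun h => absurd (two_eq_zero_of_card_two h) h2) (fun b hb hb0 => by
      by_cases h1 : ∀ y ∈ W, y ∈ Y → polar Q y b = 0
      · exact Or.inr h1
      push Not at h1
      obtain ⟨x, -, hx, hxb⟩ := h1
      have hxb' : P.B b x ≠ 0 := B_symm_ne hxb
      refine Or.inl ⟨hWu b hb, fun c => ?_⟩
      have h3 := hR _ _ (by simp [hx.1]) (hx.2 (c * Q b * (P.B b x)⁻¹)) hb0 (hWu b hb)
      convert h3 using 3
      simp only [map_smul, smul_eq_mul]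
      field_simp) hy hyY hyne
  refine SLV_le_of_cen (cen_eq_top (isoK_quad Q) hQ (by omega) hE
    (cen_of_hasT_perp hQ fun x hxu => ?_) hu0)
  have h1 := (Y.add_mem (hWY (hdec x hxu)) (Y.smul_mem (polar Q f x) huY)).2 1
  simpa using h1

theorem isMaximalIn_qsimG' [Fintype F] (h2 : (2 : F) ≠ 0) (hQ : (PQ.ofQuad Q).B.SeparatingLeft)
    (hn : 5 ≤ finrank F V) : Geo.IsMaximalIn (SLV F V) (qsimG Q ⊓ SLV F V) := by
  set P := PQ.ofQuad Q with hPd
  have h : IsoK P 3 := isoK_quad Q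
  refine isMaximalIn_of inf_le_right (fun hle => ?_) fun M h1 hM ⟨g, hg, hg'⟩ => ?_
  · obtain ⟨e, f, he, hf, hef, -, -⟩ := h.pair1 hQ (by omega) 0
    obtain ⟨y, hy, hy0⟩ := exists_nonsing_of_large hQ (X := perp P (Submodule.span F {e, f})) (by
      have := finrank_le_perp (P := P) (Submodule.span F {e, f})
      have := finrank_span_pair_le (F := F) e f
      omega)
    rw [mem_perp_span] at hy
    have hey : polar Q e y = 0 := hy e (by simp)
    have hfy : P.B f y = 0 := hy f (by simp)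
    obtain ⟨g, hg, eg⟩ := (hasT_SLV (u := y) (φ := P.B f) hfy).elim
    obtain ⟨c, -, hc⟩ := mem_qsimG.1 (hle hg).1
    have := hc e
    have he' : Q e = 0 := he
    rw [eg, B_fe hef, show P.ε = 1 from rfl, one_smul, H12.Q_add, hey, he'] at this
    exact hy0 (by simpa using this)
  have hI : P.Isom ⊓ SLV F V ≤ M := fun s hs =>
    h1 ⟨by
      rw [qsimG_eq h2]
      exact mem_simG.2 ⟨1, one_ne_zero, fun x y => by rw [hs.1.1, one_mul]⟩, hs.2⟩
  have hE : EG P ≤ M := (le_inf EG_le_isom EG_le_SLV).trans hI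
  by_cases hs : ∀ u, Q u = 0 → Q (g u) = 0
  · exfalso
    obtain ⟨c, hc⟩ := prop_of_sing_quad h2 hQ hn (Q.comp (g : V →ₗ[F] V)) hs
    refine hg' ⟨mem_qsimG.2 ⟨c, fun h0 => ?_, hc⟩, hM hg⟩
    obtain ⟨y, -, hy⟩ := exists_nonsing_of_large hQ (X := ⊤) (by simp; omega)
    have := hc (g⁻¹ y)
    simp only [comp_apply, LinearEquiv.coe_coe, le_apply_inv, h0, zero_mul] at this
    exact hy this
  push Not at hs
  obtain ⟨u, hu, hgu⟩ := hs
  have hu0 : u ≠ 0 := by rintro rfl; simp at hgu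
  have huu : P.B u u = 0 := P.self_eq_zero hu
  obtain ⟨y, ⟨hy1, hy2⟩, hy⟩ := exists_nonsing_of_large hQ
    (X := perp P (F ∙ g u) ⊓ (perp P (F ∙ u)).map (g : V →ₗ[F] V)) (by
      have h3 := finrank_inf_perp (P := P) ((perp P (F ∙ u)).map (g : V →ₗ[F] V)) (F ∙ g u)
      have h4 := finrank_le_perp (P := P) (F ∙ u)
      have h5 := finrank_span_singleton_le (F := F) u
      have h6 := finrank_span_singleton_le (F := F) (g u)
      rw [LinearEquiv.finrank_map_eq, inf_comm] at h3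
      omega)
  obtain ⟨y, hy2, rfl⟩ := hy2
  rw [LinearEquiv.coe_coe] at hy hy1
  have hy1' := mem_perp_singleton.1 hy1
  have hy2' := mem_perp_singleton.1 hy2
  obtain ⟨v, ⟨hv1, hv2⟩, hv0⟩ := exists_ne_zero_mem
    (X := (perp P (Submodule.span F {g u, g y})).comap (g : V →ₗ[F] V) ⊓
      perp P (Submodule.span F {u, y})) (by
      have h3 := finrank_inf_perp (P := P)
        ((perp P (Submodule.span F {g u, g y})).comap (g : V →ₗ[F] V)) (Submodule.span F {u, y})
      have h4 := finrank_le_perp (P := P) (Submodule.span F {g u, g y})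
      have h5 := finrank_span_pair_le (F := F) u y
      have h6 := finrank_span_pair_le (F := F) (g u) (g y)
      rw [Submodule.comap_equiv_eq_map_symm, LinearEquiv.finrank_map_eq] at h3
      rw [Submodule.comap_equiv_eq_map_symm]
      omega)
  replace hv1 : ∀ x ∈ ({g u, g y} : Set V), P.B x (g v) = 0 := mem_perp_span.1 hv1
  replace hv2 := mem_perp_span.1 hv2
  have huv : P.B u v = 0 := hv2 u (by simp)
  have hvu := P.eq_zero_symm huv
  have hvy := P.eq_zero_symm (hv2 y (by simp))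
  obtain ⟨s, hs, es⟩ := has_refl_isom hQ hgu
  obtain ⟨t, ht, et⟩ := has_refl_isom hQ hy
  have hst : s * t ∈ M := hI ⟨P.Isom.mul_mem hs ht, SLV_mul_of_det (det_refl hgu es) (det_refl hy et)⟩
  set z := g⁻¹ * (s * t) * g with hz
  have hzM : z ∈ M := M.mul_mem (M.mul_mem (M.inv_mem hg) hst) hg
  have hgz : ∀ x, g (z x) = s (t (g x)) := fun x => by
    rw [hz, le_mul_apply, le_mul_apply, le_mul_apply, le_apply_inv]
  have hzx : ∀ x, ∃ a b : F, z x = x + a • u + b • y := fun x => by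
    refine ⟨-(Q (g u))⁻¹ * P.B (g u) (t (g x)), -(Q (g y))⁻¹ * P.B (g y) (g x), g.injective ?_⟩
    have h3 := et (g x)
    rw [PQ.qrefl_apply] at h3
    rw [hgz, es, PQ.qrefl_apply, map_add, map_add, map_smul, map_smul]
    linear_combination (norm := module) h3
  have hyu : P.B (g y) (g u) = 0 := P.eq_zero_symm hy1'
  have hzu : z u = -u := g.injective (by
    rw [hgz, et, PQ.qrefl_apply, hyu, mul_zero, zero_smul, add_zero, es, PQ.qrefl_apply, ofQuad_B,
      H12.B_self, map_neg]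
    match_scalars
    field_simp
    ring)
  have hzv : z v = v := g.injective (by
    rw [hgz, et, PQ.qrefl_apply, hv1 _ (by simp), mul_zero, zero_smul, add_zero, es, PQ.qrefl_apply,
      hv1 _ (by simp), mul_zero, zero_smul, add_zero])
  have hzB : ∀ w x, P.B w u = 0 → P.B w y = 0 → P.B w (z⁻¹ x) = P.B w x := fun w x h1 h2 => by
    obtain ⟨a, b, h3⟩ := hzx (z⁻¹ x)
    rw [le_apply_inv] at h3
    conv_rhs => rw [h3]
    simp [h1, h2]
  have hzB1 := fun x => hzB u x huu hy2'
  have hzB2 := fun x => hzB v x hvu hvy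
  have h3 := (has_eu_EG (P := P) (d := u) hu huv (c := Q v) (by simp [hPd, PQ.ofQuad])).mono hE
  have h4 := (has_eu_EG (P := P) (d := u) hu (w := -v) (c := Q v) (by simp [huv])
    (by simp [hPd, PQ.ofQuad])).mono hE
  refine SLV_le_of_transvection_quad h2 hQ hn hI hu0 hu (w := (2 : F) • (Q v • u - v)) (fun hh => ?_)
    (by rw [← ofQuad_B]; simp [← hPd, huu, hvu]) ((Has.comp h4 (h3.conj hzM)).congr fun x => ?_)
  · obtain ⟨a, ha⟩ := Submodule.mem_span_singleton.1 hh
    have h5 : v = (Q v - 2⁻¹ * a) • u := by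
      have := congrArg (fun x => (2 : F)⁻¹ • x) ha
      simp only [smul_smul, inv_mul_cancel₀ h2, one_smul] at this
      linear_combination (norm := module) this
    have h6 := hv1 (g u) (by simp)
    rw [h5, map_smul, map_smul, ofQuad_B, H12.B_self, smul_eq_mul, mul_eq_zero] at h6
    rw [h6.resolve_right (mul_ne_zero h2 hgu), zero_smul] at h5
    exact hv0 h5
  · have hε : P.ε = 1 := rfl
    have hvv : P.B v v = 2 * Q v := H12.B_self Q v
    simp only [← hPd, eu_apply, map_add, map_sub, map_smul, map_neg, le_apply_inv, hzB1, hzB2, hzu,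
      hzv, LinearMap.neg_apply, LinearMap.sub_apply, LinearMap.smul_apply, smul_eq_mul, huu, hvv,
      huv, hvu, hε]
    match_scalars <;> ring

end Quad

section Matrix

variable {F : Type*} [Field F] [Fintype F] {n : ℕ}

theorem sl_symp_maximal' (hn : 5 ≤ n) (f : (Fin n → F) → (Fin n → F) → F)
    (hf : Geo.IsSymplecticForm f) :
    Geo.IsMaximalIn (Geo.specialLinear (Fin n) F)
      (Geo.similarityGroup f ⊓ Geo.specialLinear (Fin n) F) := by
  rw [H97.similarityGroup_eq, H97.specialLinear_eq, ← H97.pull_inf]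
  exact H97.isMaximalIn_pull ((H97.isoK_alt (H97.bilOf hf.bilinear) hf.alternating).isMaximalIn_simG'
    (H97.sep_of_nondeg hf.nondegenerate) (by simp; omega) ⟨1, trivial, one_ne_zero⟩)

theorem sl_herm_maximal' (hn : 6 ≤ n) (σ : F ≃+* F) (f : (Fin n → F) → (Fin n → F) → F)
    (hf : Geo.IsUnitaryForm σ f) :
    Geo.IsMaximalIn (Geo.specialLinear (Fin n) F)
      (Geo.similarityGroup f ⊓ Geo.specialLinear (Fin n) F) := by
  rw [H97.similarityGroup_eq, H97.specialLinear_eq, ← H97.pull_inf]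
  have hσ : ∀ a, (σ : F →+* F) ((σ : F →+* F) a) = a := hf.involutive
  have hne : (σ : F →+* F) ≠ RingHom.id F := fun h =>
    hf.ne_refl (RingEquiv.ext fun a => congrArg (fun g : F →+* F => g a) h)
  obtain ⟨c, hc⟩ := H28.exists_trace_one hne hσ
  let B : (Fin n → F) →ₛₗ[(σ : F →+* F)] (Fin n → F) →ₗ[F] F :=
    LinearMap.mk₂'ₛₗ (σ : F →+* F) (RingHom.id F) (fun x y => f y x)
      (fun x y z => by rw [hf.herm z, hf.add_left, map_add, ← hf.herm, ← hf.herm])
      (fun a x z => by rw [hf.herm z, hf.smul_left, map_mul, ← hf.herm]; rfl)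
      (fun x y z => hf.add_left y z x) (fun a x z => hf.smul_left a z x)
  have hS : ∀ x y, (σ : F →+* F) (B x y) = B y x := fun x y => (hf.herm x y).symm
  have hB : B.SeparatingLeft := H97.sep_of_nondeg fun v hv => (hf.nondegenerate v hv).symm
  have h1 : H97.simG (F := F) f = H97.simG fun x y => (H28.PQ.ofHerm hσ c hc B hS).B x y := by
    ext g
    exact ⟨fun ⟨a, ha⟩ => ⟨a, fun u v => ha v u⟩, fun ⟨a, ha⟩ => ⟨a, fun u v => ha v u⟩⟩
  rw [h1]
  obtain ⟨a, ha⟩ : ∃ a, (σ : F →+* F) a ≠ a := by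
    by_contra h
    push Not at h
    exact hne (RingHom.ext h)
  exact H97.isMaximalIn_pull ((H97.isoK_herm hne).isMaximalIn_simG' hB (by simp; omega)
    ⟨a - (σ : F →+* F) a, H28.mem_traceZero.2 (by rw [map_sub, hσ]; ring),
      sub_ne_zero.2 (Ne.symm ha)⟩)

theorem sl_quad_maximal' (hn : 5 ≤ n) (hodd : Odd (Fintype.card F)) (Q : (Fin n → F) → F)
    (hQ : Geo.IsNondegenerateQuadraticForm Q) :
    Geo.IsMaximalIn (Geo.specialLinear (Fin n) F)
      (Geo.quadSimilarityGroup Q ⊓ Geo.specialLinear (Fin n) F) := by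
  obtain ⟨Q, rfl, hnd⟩ := H97.exists_quadForm hQ
  rw [H97.quadSimilarityGroup_eq, H97.specialLinear_eq, ← H97.pull_inf]
  exact H97.isMaximalIn_pull (H97.isMaximalIn_qsimG' (H97.two_ne_zero_of_odd hodd) hnd
    (by simp; omega))

end Matrix

end H97
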